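import Mathlib
import Cfsg.Agent.Lib.Components.Transport

set_option autoImplicit false
set_option linter.unusedSectionVars false
set_option linter.style.haveILetI false

/-!
# Congruences for groups in which every `p'`-subgroup is abelian

`Hyp p G`: every `p'`-subgroup is abelian of exponent dividing `p - 1`.  In a perfect such group
every Sylow `q`-subgroup (`q ≠ p`) has order `≡ 1 (mod p)`, by transfer and because automizers of
`p'`-subgroups are `p`-groups.  Hence `|N(P) : P| ≡ 1 (mod p)` for `P` a Sylow `p`-subgroup.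
-/

namespace Cfsg.Agent.Lib.Loc5.Count

universe u

/-- Every `p'`-subgroup of `G` is abelian of exponent dividing `p - 1`. -/
def Hyp (p : ℕ) (G : Type*) [Group G] : Prop :=
  ∀ H : Subgroup G, (Nat.card H).Coprime p → IsMulCommutative H ∧ ∀ x ∈ H, x ^ (p - 1) = 1

variable {G : Type*} [Group G] [Finite G] {p : ℕ}

/-- The order of the join of `A` and a subgroup normalizing it divides the product of orders. -/
theorem card_sup_dvd_of_le_normalizer (A H : Subgroup G)
    (hH : H ≤ Subgroup.normalizer (A : Set G)) :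
    Nat.card (A ⊔ H : Subgroup G) ∣ Nat.card A * Nat.card H := by
  set N : Subgroup G := Subgroup.normalizer (A : Set G) with hN
  have hAN : A ≤ N := Subgroup.le_normalizer
  haveI hA₀n : (A.subgroupOf N).Normal := Subgroup.normal_subgroupOf_of_le_normalizer le_rfl
  have h := Cfsg.Agent.Lib.Components.Transport.card_sup_dvd (A.subgroupOf N) (H.subgroupOf N)
  have h1 : ((A.subgroupOf N) ⊔ (H.subgroupOf N)).map N.subtype = A ⊔ H := by
    rw [Subgroup.map_sup, Subgroup.map_subgroupOf_eq_of_le hAN, Subgroup.map_subgroupOf_eq_of_le hH]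
  have h2 : Nat.card (A ⊔ H : Subgroup G) =
      Nat.card ((A.subgroupOf N) ⊔ (H.subgroupOf N) : Subgroup N) := by
    rw [← h1]
    exact Subgroup.card_map_of_injective N.subtype_injective
  rw [h2]
  have h3 : Nat.card (A.subgroupOf N) = Nat.card A :=
    Nat.card_congr (Subgroup.subgroupOfEquivOfLe hAN).toEquiv
  have h4 : Nat.card (H.subgroupOf N) = Nat.card H :=
    Nat.card_congr (Subgroup.subgroupOfEquivOfLe hH).toEquiv
  rw [h3, h4] at h
  exact h

namespace Hyp

theorem subgroup {p : ℕ} (h : Hyp p G) (K : Subgroup G) : Hyp p K := by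
  intro H hH
  have hc : Nat.card (H.map K.subtype) = Nat.card H :=
    Subgroup.card_map_of_injective K.subtype_injective
  obtain ⟨h1, h2⟩ := h (H.map K.subtype) (by rw [hc]; exact hH)
  refine ⟨⟨⟨fun a b => ?_⟩⟩, fun x hx => ?_⟩
  · apply Subtype.ext
    apply Subtype.ext
    have ha : ((a : K) : G) ∈ H.map K.subtype := Subgroup.mem_map_of_mem K.subtype a.2
    have hb : ((b : K) : G) ∈ H.map K.subtype := Subgroup.mem_map_of_mem K.subtype b.2
    show ((a : K) : G) * ((b : K) : G) = ((b : K) : G) * ((a : K) : G)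
    exact congrArg Subtype.val (h1.is_comm.comm ⟨_, ha⟩ ⟨_, hb⟩)
  · apply Subtype.ext
    have := h2 (x : G) (Subgroup.mem_map_of_mem K.subtype hx)
    simpa using this

theorem comm {p : ℕ} (h : Hyp p G) {H : Subgroup G} (hH : (Nat.card H).Coprime p) {a b : G}
    (ha : a ∈ H) (hb : b ∈ H) : a * b = b * a :=
  congrArg Subtype.val ((h H hH).1.is_comm.comm ⟨a, ha⟩ ⟨b, hb⟩)

theorem exp {p : ℕ} (h : Hyp p G) {H : Subgroup G} (hH : (Nat.card H).Coprime p) {a : G}
    (ha : a ∈ H) : a ^ (p - 1) = 1 := (h H hH).2 a ha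

/-- Two `p'`-subgroups, one normalizing the other, commute elementwise. -/
theorem commute_of_le_normalizer {p : ℕ} (h : Hyp p G) {U V : Subgroup G}
    (hV : V ≤ Subgroup.normalizer (U : Set G)) (hUp : (Nat.card U).Coprime p)
    (hVp : (Nat.card V).Coprime p) {u v : G} (hu : u ∈ U) (hv : v ∈ V) : u * v = v * u := by
  have hc : (Nat.card (U ⊔ V : Subgroup G)).Coprime p :=
    (Nat.Coprime.mul_left hUp hVp).coprime_dvd_left (card_sup_dvd_of_le_normalizer U V hV)
  exact h.comm hc (Subgroup.mem_sup_left hu) (Subgroup.mem_sup_right hv)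

/-- A power of `g ∈ N(R)` of `p`-power exponent centralizes the `p'`-subgroup `R`. -/
theorem pow_centralizes {p : ℕ} [hp : Fact p.Prime] (h : Hyp p G) {R : Subgroup G}
    (hR : (Nat.card R).Coprime p) {g : G} (hg : g ∈ Subgroup.normalizer (R : Set G)) :
    ∃ a : ℕ, ∀ r ∈ R, r * g ^ (p ^ a) = g ^ (p ^ a) * r := by
  have ho : orderOf g ≠ 0 := (orderOf_pos g).ne'
  obtain ⟨a, b, hb, hab⟩ := Nat.exists_eq_pow_mul_and_not_dvd ho p hp.out.ne_one
  refine ⟨a, fun r hr => ?_⟩
  have hV : Subgroup.zpowers (g ^ (p ^ a)) ≤ Subgroup.normalizer (R : Set G) :=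
    Subgroup.zpowers_le.mpr (Subgroup.pow_mem _ hg _)
  have hVc : (Nat.card (Subgroup.zpowers (g ^ (p ^ a)))).Coprime p := by
    rw [Nat.card_zpowers, orderOf_pow' g (pow_ne_zero a hp.out.ne_zero)]
    have h1 : (orderOf g).gcd (p ^ a) = p ^ a := by
      rw [hab]
      exact Nat.gcd_eq_right (Dvd.intro b rfl)
    rw [h1, hab, Nat.mul_div_cancel_left _ (pow_pos hp.out.pos a)]
    exact (Nat.Prime.coprime_iff_not_dvd hp.out).mpr hb |>.symm
  exact h.commute_of_le_normalizer hV hR hVc hr (Subgroup.mem_zpowers _)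

end Hyp

/-- If `L` normalizes the `p'`-subgroup `R` and fixes only `1` in `R`, then `|R| ≡ 1 (mod p)`. -/
theorem card_modEq_one_of_fixed {p : ℕ} [hp : Fact p.Prime] (h : Hyp p G) {R L : Subgroup G}
    (hL : L ≤ Subgroup.normalizer (R : Set G)) (hR : (Nat.card R).Coprime p)
    (hfix : ∀ x ∈ R, (∀ g ∈ L, g * x * g⁻¹ = x) → x = 1) : Nat.card R ≡ 1 [MOD p] := by
  classical
  let φ : L →* MulAut R := R.normalizerMonoidHom.comp (Subgroup.inclusion hL)
  have hφ : ∀ (a : L) (r : R), ((φ a r : R) : G) = a * r * (a : G)⁻¹ := fun a r => rfl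
  let U : Subgroup (MulAut R) := φ.range
  have hU : IsPGroup p U := by
    rintro ⟨σ, g, rfl⟩
    obtain ⟨a, ha⟩ := h.pow_centralizes hR (hL g.2)
    refine ⟨a, ?_⟩
    apply Subtype.ext
    show (φ g) ^ (p ^ a) = 1
    rw [← map_pow]
    ext r
    show ((φ (g ^ p ^ a) r : R) : G) = (r : G)
    rw [hφ]
    have := ha r r.2
    simp only [Subgroup.coe_pow]
    rw [← this]
    group
  have hmod := hU.card_modEq_card_fixedPoints (R)
  have hone : Nat.card (MulAction.fixedPoints U R) = 1 := by
    rw [Nat.card_eq_one_iff_unique]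
    refine ⟨⟨fun a b => ?_⟩, ⟨⟨1, fun u => ?_⟩⟩⟩
    · have key : ∀ c : MulAction.fixedPoints U R, c = ⟨1, fun u => map_one (u : MulAut R)⟩ := by
        intro c
        apply Subtype.ext
        apply Subtype.ext
        show ((c : R) : G) = 1
        apply hfix _ (c : R).2
        intro g hg
        have h1 := c.2 ⟨φ ⟨g, hg⟩, ⟨g, hg⟩, rfl⟩
        have h2 : φ ⟨g, hg⟩ (c : R) = (c : R) := h1
        have h3 := congrArg Subtype.val h2
        rwa [hφ] at h3
      rw [key a, key b]
    · exact map_one (u : MulAut R)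
  rwa [hone] at hmod

/-- Transfer: in a perfect group a point of an abelian Sylow subgroup fixed by its normalizer
is trivial. -/
theorem fixed_eq_one {q : ℕ} [hq : Fact q.Prime] (hperf : commutator G = ⊤) (Q : Sylow q G)
    (hab : IsMulCommutative (Q : Subgroup G)) {x : G} (hx : x ∈ (Q : Subgroup G))
    (hfix : ∀ g ∈ Subgroup.normalizer ((Q : Subgroup G) : Set G), g * x * g⁻¹ = x) : x = 1 := by
  classical
  letI : CommGroup (Q : Subgroup G) :=
    { (inferInstance : Group (Q : Subgroup G)) with mul_comm := hab.is_comm.comm }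
  haveI : (Q : Subgroup G).FiniteIndex := inferInstance
  let τ : G →* (Q : Subgroup G) := MonoidHom.transfer (MonoidHom.id (Q : Subgroup G))
  have hτ : τ x = 1 := by
    have h1 : commutator G ≤ τ.ker := by
      rw [commutator_def, Subgroup.commutator_le]
      intro a _ b _
      rw [MonoidHom.mem_ker, map_commutatorElement, commutatorElement_eq_one_iff_mul_comm]
      exact mul_comm _ _
    have h2 : x ∈ τ.ker := h1 (by rw [hperf]; trivial)
    exact h2
  have key : ∀ (k : ℕ) (g₀ : G), g₀⁻¹ * x ^ k * g₀ ∈ (Q : Subgroup G) →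
      g₀⁻¹ * x ^ k * g₀ = x ^ k := by
    intro k g₀ h
    haveI : IsMulCommutative (Q : Subgroup G) := hab
    obtain ⟨n, hn, h1⟩ := Q.conj_eq_normalizer_conj_of_mem (x ^ k) g₀ ((Q : Subgroup G).pow_mem hx k) h
    rw [h1]
    have h2 : n⁻¹ * x * n = x := by
      have := hfix n⁻¹ (Subgroup.inv_mem _ hn)
      simpa using this
    have h3 : n⁻¹ * x ^ k * n = (n⁻¹ * x * n) ^ k := by
      have := conj_pow (a := n⁻¹) (b := x) (i := k)
      simpa using this.symm
    rw [h3, h2]
  have h4 := MonoidHom.transfer_eq_pow (MonoidHom.id (Q : Subgroup G)) x key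
  have h5 : x ^ (Q : Subgroup G).index = 1 := by
    have h6 : (⟨x ^ (Q : Subgroup G).index, MonoidHom.transfer_eq_pow_aux x key⟩ :
        (Q : Subgroup G)) = 1 := by
      have : τ x = _ := h4
      rw [hτ] at this
      exact this.symm
    exact congrArg Subtype.val h6
  have h7 : orderOf x ∣ (Q : Subgroup G).index := orderOf_dvd_of_pow_eq_one h5
  have h8 : orderOf x ∣ Nat.card (Q : Subgroup G) := by
    have := orderOf_dvd_natCard (⟨x, hx⟩ : (Q : Subgroup G))
    rwa [Subgroup.orderOf_mk] at this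
  have h9 := Nat.Coprime.eq_one_of_dvd (Nat.Coprime.coprime_dvd_left h7 Q.card_coprime_index.symm) h8
  exact orderOf_eq_one_iff.mp h9

/-- The main congruence for Sylow subgroups. -/
theorem sylow_card_modEq_one {p q : ℕ} [hp : Fact p.Prime] [hq : Fact q.Prime] (hpq : q ≠ p)
    (h : Hyp p G) (hperf : commutator G = ⊤) (Q : Sylow q G) :
    Nat.card (Q : Subgroup G) ≡ 1 [MOD p] := by
  have hc : (Nat.card (Q : Subgroup G)).Coprime p := by
    rw [Q.card_eq_multiplicity]
    exact Nat.Coprime.pow_left _ ((Nat.coprime_primes hq.out hp.out).mpr hpq)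
  have hab : IsMulCommutative (Q : Subgroup G) := (h _ hc).1
  exact card_modEq_one_of_fixed h le_rfl hc fun x hx hf => fixed_eq_one hperf Q hab hx hf

/-- `|G : P| ≡ 1 (mod p)`. -/
theorem index_modEq_one {p : ℕ} [hp : Fact p.Prime] (h : Hyp p G) (hperf : commutator G = ⊤)
    (P : Sylow p G) : (P : Subgroup G).index ≡ 1 [MOD p] := by
  classical
  set n := Nat.card G with hn
  have hn0 : n ≠ 0 := Nat.card_pos.ne'
  have hprod : ∏ q ∈ n.primeFactors, q ^ n.factorization q = n :=
    Nat.prod_factorization_pow_eq_self hn0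
  have hsplit : p ^ n.factorization p * ∏ q ∈ n.primeFactors.erase p, q ^ n.factorization q = n := by
    by_cases hpn : p ∈ n.primeFactors
    · rw [Finset.mul_prod_erase _ (fun q => q ^ n.factorization q) hpn, hprod]
    · have h0 : n.factorization p = 0 := by
        rw [← Finsupp.notMem_support_iff, Nat.support_factorization]
        exact hpn
      rw [h0, pow_zero, one_mul, Finset.erase_eq_of_notMem hpn, hprod]
  have hP : Nat.card (P : Subgroup G) = p ^ n.factorization p := P.card_eq_multiplicity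
  have hidx : (P : Subgroup G).index = ∏ q ∈ n.primeFactors.erase p, q ^ n.factorization q := by
    have h1 := Subgroup.card_mul_index (P : Subgroup G)
    rw [hP, ← hn] at h1
    have h2 : 0 < p ^ n.factorization p := pow_pos hp.out.pos _
    exact Nat.eq_of_mul_eq_mul_left h2 (h1.trans hsplit.symm)
  rw [hidx]
  have hall : ∀ q ∈ n.primeFactors.erase p, q ^ n.factorization q ≡ 1 [MOD p] := by
    intro q hq
    have hq' := Finset.mem_erase.mp hq
    have hqp : q.Prime := Nat.prime_of_mem_primeFactors hq'.2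
    haveI : Fact q.Prime := ⟨hqp⟩
    obtain ⟨Q⟩ : Nonempty (Sylow q G) := inferInstance
    have := sylow_card_modEq_one hq'.1 h hperf Q
    rwa [Q.card_eq_multiplicity] at this
  have hgen : ∀ s : Finset ℕ, (∀ q ∈ s, q ^ n.factorization q ≡ 1 [MOD p]) →
      ∏ q ∈ s, q ^ n.factorization q ≡ 1 [MOD p] := by
    intro s
    induction s using Finset.induction_on with
    | empty => intro _; simp [Nat.ModEq.refl]
    | insert a s ha ih =>
      intro hs
      rw [Finset.prod_insert ha]
      have h1 := hs a (Finset.mem_insert_self a s)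
      have h2 := ih (fun q hq => hs q (Finset.mem_insert_of_mem hq))
      simpa using h1.mul h2
  exact hgen _ hall

/-- `|N(P) : P| ≡ 1 (mod p)`. -/
theorem relIndex_modEq_one {p : ℕ} [hp : Fact p.Prime] (h : Hyp p G) (hperf : commutator G = ⊤)
    (P : Sylow p G) :
    (P : Subgroup G).relIndex (Subgroup.normalizer ((P : Subgroup G) : Set G)) ≡ 1 [MOD p] := by
  have h1 := Subgroup.relIndex_mul_index (H := (P : Subgroup G))
    (K := Subgroup.normalizer ((P : Subgroup G) : Set G)) Subgroup.le_normalizer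
  have h2 : (Subgroup.normalizer ((P : Subgroup G) : Set G)).index ≡ 1 [MOD p] := by
    have h0 : Nat.card (Sylow p G) = (Subgroup.normalizer ((P : Subgroup G) : Set G)).index :=
      Sylow.card_eq_index_normalizer P
    rw [← h0]
    exact card_sylow_modEq_one p G
  have h3 := index_modEq_one h hperf P
  rw [← h1] at h3
  have h4 := (Nat.ModEq.mul_left ((P : Subgroup G).relIndex
    (Subgroup.normalizer ((P : Subgroup G) : Set G))) h2)
  rw [mul_one] at h4
  exact h4.symm.trans h3

end Cfsg.Agent.Lib.Loc5.Count
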