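import Mathlib
import Cfsg.Agent.Lib.PGroup.FrattiniBasis
import Cfsg.Agent.Lib.Fusion.Resist.GL
import Cfsg.Agent.Lib.Coprime.Coset

set_option autoImplicit false

/-!
# Generation of a `p`-group by centralizers of an abelian group of exponent dividing `p - 1`

If `H` is an abelian `p'`-group of exponent dividing `p - 1` acting on a `p`-group `P`, then `H` is
simultaneously diagonalizable on `P / Φ(P)`, with characters in `𝔽_p^×`.  When `|H| ≥ p` each of
these characters has a nontrivial kernel, hence `P` is generated by the `C_P(w)`, `1 ≠ w ∈ H`.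
-/

namespace Cfsg.Agent.Lib.Loc5.Eigen

open Cfsg.Agent.Lib.PGroup Cfsg.Agent.Lib.PGroup.FrattiniBasis

section Linear

variable {p : ℕ} [hp : Fact p.Prime] {V : Type*} [AddCommGroup V] [Module (ZMod p) V]

/-- The spectral projection of `f` (with `f ^ (p - 1) = 1`) attached to the unit `u`. -/
noncomputable def proj (f : V →ₗ[ZMod p] V) (u : (ZMod p)ˣ) (v : V) : V :=
  -∑ i ∈ Finset.range (p - 1), ((u : ZMod p) ^ i) • (f ^ i) v

theorem apply_proj {f : V →ₗ[ZMod p] V} (hf : f ^ (p - 1) = 1) (u : (ZMod p)ˣ) (v : V) :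
    f (proj f u v) = ((u⁻¹ : (ZMod p)ˣ) : ZMod p) • proj f u v := by
  have hp2 : 1 ≤ p - 1 := Nat.le_sub_one_of_lt hp.out.one_lt
  have hu : ((u : ZMod p)) ^ (p - 1) = 1 := ZMod.pow_card_sub_one_eq_one u.ne_zero
  have h1 : ∑ i ∈ Finset.range (p - 1), ((u : ZMod p) ^ (i + 1)) • (f ^ (i + 1)) v
      = ∑ i ∈ Finset.range (p - 1), ((u : ZMod p) ^ i) • (f ^ i) v := by
    obtain ⟨n, hn⟩ : ∃ n, p - 1 = n + 1 := ⟨p - 2, by omega⟩
    rw [hn] at hf hu ⊢
    rw [Finset.sum_range_succ, Finset.sum_range_succ' (fun i => ((u : ZMod p) ^ i) • (f ^ i) v)]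
    simp only [hu, hf, pow_zero, one_smul, Module.End.one_apply]
  have h2 : ∀ i, f (((u : ZMod p) ^ i) • (f ^ i) v)
      = ((u⁻¹ : (ZMod p)ˣ) : ZMod p) • (((u : ZMod p) ^ (i + 1)) • (f ^ (i + 1)) v) := by
    intro i
    rw [map_smul, smul_smul, pow_succ' (u : ZMod p), ← mul_assoc, Units.inv_mul, one_mul, pow_succ' f,
      Module.End.mul_apply]
  simp only [proj, map_neg, map_sum, h2, ← Finset.smul_sum, h1, smul_neg]

theorem sum_proj (f : V →ₗ[ZMod p] V) (v : V) : ∑ u : (ZMod p)ˣ, proj f u v = v := by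
  classical
  have hp2 : 1 ≤ p - 1 := Nat.le_sub_one_of_lt hp.out.one_lt
  simp only [proj]
  rw [Finset.sum_neg_distrib, neg_eq_iff_eq_neg]
  rw [Finset.sum_comm]
  simp_rw [← Finset.sum_smul]
  have hs : ∀ i ∈ Finset.range (p - 1), (∑ u : (ZMod p)ˣ, ((u : ZMod p) ^ i)) • (f ^ i) v
      = if i = 0 then -v else 0 := by
    intro i hi
    rw [Finset.mem_range] at hi
    have := FiniteField.sum_pow_units (K := ZMod p) i
    rw [this, ZMod.card]
    by_cases h0 : i = 0
    · subst h0
      simp
    · have hnd : ¬ (p - 1 ∣ i) := fun hd => by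
        have := Nat.le_of_dvd (Nat.pos_of_ne_zero h0) hd
        omega
      simp [h0, hnd]
  rw [Finset.sum_congr rfl hs, Finset.sum_ite_eq']
  simp [show 0 < p - 1 by omega]

theorem commute_proj {f g : V →ₗ[ZMod p] V} (hc : Commute f g) (u : (ZMod p)ˣ) (v : V) :
    g (proj f u v) = proj f u (g v) := by
  simp only [proj, map_neg, map_sum, map_smul]
  congr 1
  refine Finset.sum_congr rfl fun i _ => ?_
  congr 1
  have := (hc.pow_left i).eq
  have h2 := congrArg (fun h : V →ₗ[ZMod p] V => h v) this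
  simpa [Module.End.mul_apply] using h2.symm

theorem proj_smul (f : V →ₗ[ZMod p] V) (u : (ZMod p)ˣ) (a : ZMod p) (v : V) :
    proj f u (a • v) = a • proj f u v := by
  simp only [proj, map_smul, smul_neg, Finset.smul_sum]
  congr 1
  refine Finset.sum_congr rfl fun i _ => ?_
  rw [smul_comm]

/-- Commuting operators with `f ^ (p - 1) = 1`: the common eigenvectors span. -/
theorem span_common_eq_top {ι : Type*} (F : Finset ι) (f : ι → V →ₗ[ZMod p] V)
    (hf : ∀ i ∈ F, f i ^ (p - 1) = 1) (hc : ∀ i ∈ F, ∀ j ∈ F, Commute (f i) (f j)) :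
    Submodule.span (ZMod p) {v : V | ∀ i ∈ F, ∃ a : ZMod p, f i v = a • v} = ⊤ := by
  classical
  induction F using Finset.induction_on with
  | empty =>
    rw [eq_top_iff, ← Submodule.span_univ]
    exact Submodule.span_mono (fun v _ => by simp)
  | insert j F hj ih =>
    have ih' := ih (fun i hi => hf i (Finset.mem_insert_of_mem hi))
      (fun i hi k hk => hc i (Finset.mem_insert_of_mem hi) k (Finset.mem_insert_of_mem hk))
    rw [eq_top_iff, ← ih', Submodule.span_le]
    intro v hv
    rw [← sum_proj (f j) v]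
    refine Submodule.sum_mem _ fun u _ => Submodule.subset_span ?_
    intro i hi
    rcases Finset.mem_insert.mp hi with rfl | hi
    · exact ⟨_, apply_proj (hf i (Finset.mem_insert_self _ _)) u v⟩
    · obtain ⟨a, ha⟩ := hv i hi
      refine ⟨a, ?_⟩
      rw [commute_proj (hc j (Finset.mem_insert_self _ _) i (Finset.mem_insert_of_mem hi)) u v, ha,
        proj_smul]

end Linear

section Group

variable {G : Type*} [Group G] [Finite G] {p : ℕ} [hp : Fact p.Prime]

/-- **Generation.** `H` abelian of exponent dividing `p - 1`, `p'`-group, `|H| ≥ p`, normalizing a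
`p`-group `P`: then `P` is generated by the `C_P(w)`, `1 ≠ w ∈ H`. -/
theorem le_iSup_centralizer {P H : Subgroup G} (hP : IsPGroup p P)
    (hHP : H ≤ Subgroup.normalizer (P : Set G)) (hcop : (Nat.card H).Coprime p)
    (hcomm : ∀ a ∈ H, ∀ b ∈ H, a * b = b * a) (hexp : ∀ x ∈ H, x ^ (p - 1) = 1)
    (hcard : p ≤ Nat.card H) :
    P ≤ ⨆ w : {w : G // w ∈ H ∧ w ≠ 1}, P ⊓ Subgroup.centralizer {(w : G)} := by
  classical
  obtain ⟨V, _, _, π, hπ, hker⟩ := exists_vector_space (G := P) hP
  haveI : Finite V := finite_of_surj hπ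
  haveI : Fintype H := Fintype.ofFinite H
  let φ : H →* MulAut P := P.normalizerMonoidHom.comp (Subgroup.inclusion hHP)
  have hφ : ∀ (a : H) (r : P), ((φ a r : P) : G) = a * r * (a : G)⁻¹ := fun a r => rfl
  let ρ : H →* (V ≃ₗ[ZMod p] V) := (Fusion.Resist.GL.frattGL (p := p) π hπ hker).comp φ
  have hρ : ∀ (a : H) (r : P), ρ a (Multiplicative.toAdd (π r))
      = Multiplicative.toAdd (π (φ a r)) := fun a r =>
    Fusion.Resist.GL.frattGL_apply π hπ hker (φ a) r
  let f : H → V →ₗ[ZMod p] V := fun w => (ρ w : V ≃ₗ[ZMod p] V).toLinearMap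
  have hfmul : ∀ (a b : H) (v : V), f (a * b) v = f a (f b v) := fun a b v => by
    show ρ (a * b) v = ρ a (ρ b v)
    rw [map_mul]; rfl
  have hfone : ∀ v : V, f 1 v = v := fun v => by
    show ρ 1 v = v
    rw [map_one]; rfl
  have hfpow : ∀ (a : H) (n : ℕ) (v : V), (f a ^ n) v = f (a ^ n) v := by
    intro a n
    induction n with
    | zero => intro v; simp [hfone]
    | succ n ih =>
      intro v
      rw [pow_succ', Module.End.mul_apply, ih, pow_succ', hfmul]
  have hcommH : ∀ a b : H, a * b = b * a := fun a b =>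
    Subtype.ext (hcomm a a.2 b b.2)
  have hpow1 : ∀ w : H, f w ^ (p - 1) = 1 := by
    intro w
    apply LinearMap.ext
    intro v
    rw [hfpow]
    have : w ^ (p - 1) = 1 := Subtype.ext (by simpa using hexp w w.2)
    rw [this, hfone]
    rfl
  have hcommf : ∀ a b : H, Commute (f a) (f b) := by
    intro a b
    apply LinearMap.ext
    intro v
    show f a (f b v) = f b (f a v)
    rw [← hfmul, ← hfmul, hcommH]
  have hspan := span_common_eq_top (Finset.univ : Finset H) f (fun i _ => hpow1 i)
    (fun i _ j _ => hcommf i j)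
  -- the subgroup generated
  set Y : Subgroup G := ⨆ w : {w : G // w ∈ H ∧ w ≠ 1}, P ⊓ Subgroup.centralizer {(w : G)} with hY
  let T : Set P := {r | (r : G) ∈ Y}
  -- a common eigenvector is fixed by a nontrivial element
  have hfix : ∀ v : V, (∀ i ∈ (Finset.univ : Finset H), ∃ a : ZMod p, f i v = a • v) → v ≠ 0 →
      ∃ w : H, w ≠ 1 ∧ f w v = v := by
    intro v hv hv0
    choose! lam hlam using hv
    have hlam' : ∀ i : H, f i v = lam i • v := fun i => hlam i (Finset.mem_univ i)
    have hne : ∀ i : H, lam i ≠ 0 := by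
      intro i h0
      have h1 := hlam' i
      rw [h0, zero_smul] at h1
      have : v = 0 := by
        have h2 : ρ i v = 0 := h1
        exact (ρ i).map_eq_zero_iff.mp h2
      exact hv0 this
    have hcardlt : (Finset.univ.filter (fun a : ZMod p => a ≠ 0)).card <
        (Finset.univ : Finset H).card := by
      have h1 : (Finset.univ.filter (fun a : ZMod p => a ≠ 0)).card = p - 1 := by
        rw [Finset.filter_ne' , Finset.card_erase_of_mem (Finset.mem_univ _), Finset.card_univ,
          ZMod.card]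
      rw [h1, Finset.card_univ, ← Nat.card_eq_fintype_card]
      have := hp.out.one_lt
      omega
    obtain ⟨a, -, b, -, hab, hlab⟩ := Finset.exists_ne_map_eq_of_card_lt_of_maps_to hcardlt
      (f := lam) (fun i _ => by simp [hne i])
    refine ⟨a⁻¹ * b, ?_, ?_⟩
    · intro h
      exact hab (inv_mul_eq_one.mp h)
    · rw [hfmul, hlam' b, map_smul, ← hlab]
      have h : f a⁻¹ (f a v) = v := by rw [← hfmul, inv_mul_cancel, hfone]
      rw [hlam' a, map_smul] at h
      exact h
  -- fixed vectors lift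
  have hlift : ∀ (v : V) (w : H), w ≠ 1 → f w v = v →
      v ∈ (fun g => Multiplicative.toAdd (π g)) '' T := by
    intro v w hw hwv
    obtain ⟨r, hr⟩ := hπ (Multiplicative.ofAdd v)
    have hrv : Multiplicative.toAdd (π r) = v := by rw [hr]; rfl
    set N : Subgroup G := (frattini P).map P.subtype with hN
    have hAP : Subgroup.zpowers (w : G) ≤ Subgroup.normalizer (P : Set G) :=
      (Subgroup.zpowers_le.mpr (hHP w.2))
    have hAH : Subgroup.zpowers (w : G) ≤ H := Subgroup.zpowers_le.mpr w.2
    have hcopA : (Nat.card (Subgroup.zpowers (w : G))).Coprime (Nat.card P) := by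
      obtain ⟨k, hk⟩ := IsPGroup.iff_card.mp hP
      rw [hk]
      apply Nat.Coprime.pow_right
      exact hcop.coprime_dvd_left (Subgroup.card_dvd_of_le hAH)
    have hNP : N ≤ P := by
      rw [hN]
      exact (Subgroup.map_subtype_le _)
    have hNA : Subgroup.zpowers (w : G) ≤ Subgroup.normalizer (N : Set G) := by
      rw [Subgroup.zpowers_le]
      rw [Subgroup.mem_normalizer_iff]
      have key : ∀ (a : H), ∀ x ∈ N, (a : G) * x * (a : G)⁻¹ ∈ N := by
        intro a x hx
        obtain ⟨y, hy, rfl⟩ := Subgroup.mem_map.mp hx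
        refine Subgroup.mem_map.mpr ⟨φ a y, ?_, (hφ a y).symm⟩
        exact (ActionFrattini.char_mem (frattini P) (φ a)).2 hy
      intro x
      constructor
      · exact key w x
      · intro hx
        have := key w⁻¹ _ hx
        simpa [mul_assoc] using this
    have hcoset : ∀ a ∈ Subgroup.zpowers (w : G), (r : G)⁻¹ * (a * r * a⁻¹) ∈ N := by
      intro a ha
      obtain ⟨k, rfl⟩ := Subgroup.mem_zpowers_iff.mp ha
      let S : Subgroup H :=
        { carrier := {h | f h v = v}
          mul_mem' := by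
            intro a b ha hb
            show f (a * b) v = v
            rw [hfmul, show f b v = v from hb, show f a v = v from ha]
          one_mem' := hfone v
          inv_mem' := by
            intro a ha
            have h1 : f a v = v := ha
            show f a⁻¹ v = v
            conv_lhs => rw [← h1]
            rw [← hfmul, inv_mul_cancel, hfone] }
      have hwS : w ∈ S := hwv
      have hkS : w ^ k ∈ S := S.zpow_mem hwS k
      have h1 : f (w ^ k) v = v := hkS
      have h2 : Multiplicative.toAdd (π (φ (w ^ k) r)) = Multiplicative.toAdd (π r) := by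
        rw [← hρ, hrv]
        exact h1
      have h3 : π (φ (w ^ k) r) = π r := Multiplicative.toAdd.injective h2
      have h4 : r⁻¹ * φ (w ^ k) r ∈ π.ker := by
        rw [MonoidHom.mem_ker, map_mul, map_inv, h3, inv_mul_cancel]
      rw [hker] at h4
      refine Subgroup.mem_map.mpr ⟨_, h4, ?_⟩
      show (r : G)⁻¹ * ((φ (w ^ k) r : P) : G) = _
      rw [hφ]
      simp
    obtain ⟨c, hc, hcr⟩ := Coprime.Coset.exists_centralizer_mem_coset hAP hcopA
      (Or.inl (by infer_instance)) hNP hNA (r : G) r.2 hcoset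
    have hcP : c ∈ P := hc.1
    have hcC : c ∈ Subgroup.centralizer {(w : G)} := by
      have h1 := Subgroup.mem_centralizer_iff.mp hc.2 (w : G) (Subgroup.mem_zpowers _)
      rw [Subgroup.mem_centralizer_singleton_iff]
      exact h1.symm
    have hcY : c ∈ Y := by
      have hw' : (w : G) ≠ 1 := fun h => hw (Subtype.ext h)
      exact (le_iSup (fun w : {w : G // w ∈ H ∧ w ≠ 1} => P ⊓ Subgroup.centralizer {(w : G)})
        ⟨(w : G), w.2, hw'⟩) ⟨hcP, hcC⟩
    refine ⟨⟨c, hcP⟩, hcY, ?_⟩
    obtain ⟨y, hy, hyc⟩ := Subgroup.mem_map.mp hcr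
    have h5 : (⟨c, hcP⟩ : P) = r * y := by
      apply Subtype.ext
      show c = (r : G) * (y : G)
      have : ((y : P) : G) = (r : G)⁻¹ * c := hyc
      rw [this]
      group
    rw [← hker] at hy
    show Multiplicative.toAdd (π ⟨c, hcP⟩) = v
    rw [h5, map_mul, MonoidHom.mem_ker.mp hy, mul_one, hrv]
  -- conclusion
  have hspan2 : Submodule.span (ZMod p) ((fun g => Multiplicative.toAdd (π g)) '' T) = ⊤ := by
    rw [eq_top_iff, ← hspan, Submodule.span_le]
    intro v hv
    by_cases hv0 : v = 0
    · rw [hv0]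
      exact Submodule.zero_mem _
    · obtain ⟨w, hw, hwv⟩ := hfix v hv hv0
      exact Submodule.subset_span (hlift v w hw hwv)
  have hcl := closure_eq_top_of_span hπ hker hspan2
  have hTeq : T = ((Y.subgroupOf P : Subgroup P) : Set P) := rfl
  rw [hTeq, Subgroup.closure_eq] at hcl
  intro x hx
  have : (⟨x, hx⟩ : P) ∈ Y.subgroupOf P := by
    rw [hcl]
    trivial
  exact this

end Group

end Cfsg.Agent.Lib.Loc5.Eigen
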