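import Mathlib
import Cfsg.Agent.Lib.Solvable.PSeries
import Cfsg.Agent.Lib.Basic.PCore

set_option autoImplicit false
set_option linter.unusedSectionVars false
set_option linter.style.haveILetI false

/-!
# Solvable groups with an abelian Sylow 2-subgroup

If `X` is solvable with abelian Sylow 2-subgroup `S` and `D = O(X)`, then `S D` is normal in `X`,
`X = D N_X(S)`, and every odd order subgroup normalized by `S` lies in `D`.
-/

namespace Cfsg.Agent.Lib.Loc5.Local

open Cfsg Cfsg.Agent.Lib.Solvable.PSeries Cfsg.Agent.Lib.Basic.PCore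

section OnType

variable {X : Type*} [Group X] [Finite X] [Group.IsSolvable X]

/-- The image of an abelian Sylow 2-subgroup in `X / O(X)` is `O_2(X / O(X))`. -/
theorem map_eq_pCore (S : Sylow 2 X) (hS : IsMulCommutative (S : Subgroup X)) :
    (S : Subgroup X).map (QuotientGroup.mk' (pPrimeCore 2 X)) = pCore 2 (X ⧸ pPrimeCore 2 X) := by
  classical
  set π := QuotientGroup.mk' (pPrimeCore 2 X) with hπ
  have hsurj : Function.Surjective π := QuotientGroup.mk'_surjective _
  let Sb : Sylow 2 (X ⧸ pPrimeCore 2 X) := S.mapSurjective hsurj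
  have hSb : (Sb : Subgroup _) = (S : Subgroup X).map π := Sylow.coe_mapSurjective hsurj S
  have hle : pCore 2 (X ⧸ pPrimeCore 2 X) ≤ (Sb : Subgroup _) := pCore_le_sylow Sb
  apply le_antisymm
  · rw [← hSb]
    have hsol : IsPSolvable 2 (X ⧸ pPrimeCore 2 X) :=
      isPSolvable_quotient (isPSolvable_of_solvable) _
    refine le_trans ?_ (centralizer_pCore_le hsol (pPrimeCore_quotient 2))
    intro y hy
    rw [Subgroup.mem_centralizer_iff]
    intro z hz
    have hz' := hle hz
    rw [hSb] at hy hz'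
    obtain ⟨a, ha, rfl⟩ := Subgroup.mem_map.mp hy
    obtain ⟨b, hb, rfl⟩ := Subgroup.mem_map.mp hz'
    have : b * a = a * b := by
      have := hS.is_comm.comm (⟨b, hb⟩ : (S : Subgroup X)) ⟨a, ha⟩
      exact congrArg Subtype.val this
    rw [← map_mul, ← map_mul, this]
  · rw [← hSb]
    exact hle

theorem sup_normal (S : Sylow 2 X) (hS : IsMulCommutative (S : Subgroup X)) :
    ((S : Subgroup X) ⊔ pPrimeCore 2 X).Normal := by
  set π := QuotientGroup.mk' (pPrimeCore 2 X) with hπ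
  have h1 : (S : Subgroup X) ⊔ pPrimeCore 2 X = ((S : Subgroup X).map π).comap π := by
    rw [Subgroup.comap_map_eq, QuotientGroup.ker_mk']
  rw [h1, map_eq_pCore S hS]
  exact (pCore_normal 2 _).comap π

/-- Frattini argument: `X = O(X) N_X(S)`. -/
theorem normalizer_sup_eq_top (S : Sylow 2 X) (hS : IsMulCommutative (S : Subgroup X)) :
    Subgroup.normalizer ((S : Subgroup X) : Set X) ⊔ pPrimeCore 2 X = ⊤ := by
  haveI := sup_normal S hS
  have h := Sylow.normalizer_sup_eq_top' (N := (S : Subgroup X) ⊔ pPrimeCore 2 X) S le_sup_left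
  rw [eq_top_iff, ← h]
  refine sup_le le_sup_left (sup_le ?_ le_sup_right)
  exact le_trans Subgroup.le_normalizer le_sup_left

/-- An odd order subgroup normalized by the abelian Sylow 2-subgroup lies in `O(X)`. -/
theorem le_pPrimeCore_of_odd (S : Sylow 2 X) (hS : IsMulCommutative (S : Subgroup X))
    (Y : Subgroup X) (hY : ¬ 2 ∣ Nat.card Y)
    (hSY : (S : Subgroup X) ≤ Subgroup.normalizer (Y : Set X)) : Y ≤ pPrimeCore 2 X := by
  classical
  set π := QuotientGroup.mk' (pPrimeCore 2 X) with hπ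
  set Sb := (S : Subgroup X).map π with hSb
  set Yb := Y.map π with hYb
  have hSbeq : Sb = pCore 2 (X ⧸ pPrimeCore 2 X) := map_eq_pCore S hS
  haveI hnor : Sb.Normal := by rw [hSbeq]; exact pCore_normal 2 _
  have hYodd : (Nat.card Yb).Coprime (Nat.card Sb) := by
    have h2 : ∃ k, Nat.card Sb = 2 ^ k := by
      rw [hSbeq]
      exact IsPGroup.iff_card.mp (pCore_isPGroup 2)
    obtain ⟨k, hk⟩ := h2
    rw [hk]
    apply Nat.Coprime.pow_right
    have hdvd : Nat.card Yb ∣ Nat.card Y := Subgroup.card_map_dvd Y π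
    exact ((Nat.Prime.coprime_iff_not_dvd Nat.prime_two).mpr fun h => hY (h.trans hdvd)).symm
  have hinf : Yb ⊓ Sb = ⊥ := (Subgroup.disjoint_of_coprime_natCard hYodd).eq_bot
  have hcomm : ∀ y ∈ Yb, ∀ s ∈ Sb, y * s = s * y := by
    intro y hy s hs
    have h1 : y * s * y⁻¹ * s⁻¹ ∈ Sb := Sb.mul_mem (hnor.conj_mem s hs y) (Sb.inv_mem hs)
    have h2 : y * s * y⁻¹ * s⁻¹ ∈ Yb := by
      obtain ⟨a, ha, rfl⟩ := Subgroup.mem_map.mp hs
      obtain ⟨b, hb, rfl⟩ := Subgroup.mem_map.mp hy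
      have h3 : a * b⁻¹ * a⁻¹ ∈ Y := (Subgroup.mem_normalizer_iff.mp (hSY ha) _).mp (Y.inv_mem hb)
      have h4 : π b * π a * (π b)⁻¹ * (π a)⁻¹ = π (b * (a * b⁻¹ * a⁻¹)) := by
        simp [mul_assoc]
      rw [h4]
      exact Subgroup.mem_map_of_mem π (Y.mul_mem hb h3)
    have h5 : y * s * y⁻¹ * s⁻¹ ∈ Yb ⊓ Sb := ⟨h2, h1⟩
    rw [hinf, Subgroup.mem_bot] at h5
    have h6 : y * s * y⁻¹ = s := mul_inv_eq_one.mp h5
    exact mul_inv_eq_iff_eq_mul.mp h6
  have hsol : IsPSolvable 2 (X ⧸ pPrimeCore 2 X) :=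
    isPSolvable_quotient (isPSolvable_of_solvable) _
  have hYS : Yb ≤ Sb := by
    intro y hy
    rw [hSbeq]
    apply centralizer_pCore_le hsol (pPrimeCore_quotient 2)
    rw [Subgroup.mem_centralizer_iff]
    intro z hz
    rw [← hSbeq] at hz
    exact (hcomm y hy z hz).symm
  have hbot : Yb = ⊥ := by
    rw [eq_bot_iff, ← hinf]
    exact le_inf le_rfl hYS
  intro y hy
  have : π y ∈ Yb := Subgroup.mem_map_of_mem π hy
  rw [hbot, Subgroup.mem_bot] at this
  have h7 : y ∈ π.ker := this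
  rwa [QuotientGroup.ker_mk'] at h7

end OnType

section Ambient

variable {G : Type*} [Group G] [Finite G]

/-- `O(K)` as a subgroup of the ambient group. -/
def oddOf (K : Subgroup G) : Subgroup G := (pPrimeCore 2 K).map K.subtype

theorem oddOf_le (K : Subgroup G) : oddOf K ≤ K := Subgroup.map_subtype_le _

theorem not_two_dvd_card_oddOf (K : Subgroup G) : ¬ 2 ∣ Nat.card (oddOf K) := by
  haveI : Fact (Nat.Prime 2) := ⟨Nat.prime_two⟩
  have h1 : Nat.card (oddOf K) = Nat.card (pPrimeCore 2 K) :=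
    Subgroup.card_map_of_injective K.subtype_injective
  rw [h1]
  have h2 := (pPrimeCore_coprime (G := K) 2)
  exact (Nat.Prime.coprime_iff_not_dvd Nat.prime_two).mp h2.symm

theorem conj_mem_oddOf (K : Subgroup G) {k x : G} (hk : k ∈ K) (hx : x ∈ oddOf K) :
    k * x * k⁻¹ ∈ oddOf K := by
  obtain ⟨y, hy, rfl⟩ := Subgroup.mem_map.mp hx
  refine Subgroup.mem_map.mpr ⟨⟨k, hk⟩ * y * ⟨k, hk⟩⁻¹, ?_, by simp⟩
  exact (pPrimeCore_normal 2 K).conj_mem y hy ⟨k, hk⟩

variable {T : Sylow 2 G}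

theorem commutative_subtype (K : Subgroup G) (hT : (T : Subgroup G) ≤ K)
    (hab : IsMulCommutative (T : Subgroup G)) :
    haveI : Fact (Nat.Prime 2) := ⟨Nat.prime_two⟩
    IsMulCommutative ((T.subtype hT : Sylow 2 K) : Subgroup K) := by
  haveI : Fact (Nat.Prime 2) := ⟨Nat.prime_two⟩
  have hS : ((T.subtype hT : Sylow 2 K) : Subgroup K) = (T : Subgroup G).subgroupOf K :=
    Sylow.coe_subtype T hT
  have h0 : ∀ y : K, y ∈ ((T.subtype hT : Sylow 2 K) : Subgroup K) → (y : G) ∈ (T : Subgroup G) :=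
    fun y hy => by
      rw [hS] at hy
      exact hy
  have hmem : ∀ a : ((T.subtype hT : Sylow 2 K) : Subgroup K), ((a : K) : G) ∈ (T : Subgroup G) :=
    fun a => h0 a a.2
  refine ⟨⟨fun a b => ?_⟩⟩
  apply Subtype.ext
  apply Subtype.ext
  show ((a : K) : G) * ((b : K) : G) = ((b : K) : G) * ((a : K) : G)
  exact congrArg Subtype.val (hab.is_comm.comm ⟨_, hmem a⟩ ⟨_, hmem b⟩)

/-- Frattini argument in the ambient group. -/
theorem exists_mul_of_mem (K : Subgroup G) [Group.IsSolvable K] (hT : (T : Subgroup G) ≤ K)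
    (hab : IsMulCommutative (T : Subgroup G)) {k : G} (hk : k ∈ K) :
    ∃ d ∈ oddOf K, ∃ n ∈ Subgroup.normalizer ((T : Subgroup G) : Set G), n ∈ K ∧ k = n * d := by
  classical
  haveI : Fact (Nat.Prime 2) := ⟨Nat.prime_two⟩
  let S : Sylow 2 K := T.subtype hT
  have hS : (S : Subgroup K) = (T : Subgroup G).subgroupOf K := Sylow.coe_subtype T hT
  have habS : IsMulCommutative (S : Subgroup K) := commutative_subtype K hT hab
  have htop := normalizer_sup_eq_top S habS
  have hmem : (⟨k, hk⟩ : K) ∈ Subgroup.normalizer ((S : Subgroup K) : Set K) ⊔ pPrimeCore 2 K := by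
    rw [htop]; trivial
  have hmem2 : (⟨k, hk⟩ : K) ∈ (((Subgroup.normalizer ((S : Subgroup K) : Set K) ⊔ pPrimeCore 2 K :
      Subgroup K) : Set K)) := hmem
  rw [Subgroup.mul_normal] at hmem2
  obtain ⟨n, hn0, d, hd, hnd⟩ := Set.mem_mul.mp hmem2
  have hn : n ∈ Subgroup.normalizer ((S : Subgroup K) : Set K) := hn0
  refine ⟨d, Subgroup.mem_map_of_mem K.subtype hd, n, ?_, n.2, ?_⟩
  · rw [Subgroup.mem_normalizer_iff]
    intro x
    rw [Subgroup.mem_normalizer_iff] at hn
    constructor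
    · intro hx
      have hxK : x ∈ K := hT hx
      have h1 : (⟨x, hxK⟩ : K) ∈ (S : Subgroup K) := by
        rw [hS]; exact hx
      have h2 := (hn _).mp h1
      rw [hS] at h2
      exact h2
    · intro hx
      have hxK : (n : G) * x * (n : G)⁻¹ ∈ K := hT hx
      have hxK' : x ∈ K := by
        have := K.mul_mem (K.mul_mem (K.inv_mem n.2) hxK) n.2
        simpa [mul_assoc] using this
      have h1 : (n * ⟨x, hxK'⟩ * n⁻¹ : K) ∈ (S : Subgroup K) := by
        rw [hS]; exact hx
      have h2 := (hn _).mpr h1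
      rw [hS] at h2
      exact h2
  · have := congrArg Subtype.val hnd
    exact this.symm

/-- An odd order subgroup of `K` normalized by the abelian Sylow 2-subgroup lies in `O(K)`. -/
theorem le_oddOf (K : Subgroup G) [Group.IsSolvable K] (hT : (T : Subgroup G) ≤ K)
    (hab : IsMulCommutative (T : Subgroup G)) (Y : Subgroup G) (hYK : Y ≤ K)
    (hY : ¬ 2 ∣ Nat.card Y) (hTY : (T : Subgroup G) ≤ Subgroup.normalizer (Y : Set G)) :
    Y ≤ oddOf K := by
  classical
  haveI : Fact (Nat.Prime 2) := ⟨Nat.prime_two⟩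
  let S : Sylow 2 K := T.subtype hT
  have hS : (S : Subgroup K) = (T : Subgroup G).subgroupOf K := Sylow.coe_subtype T hT
  have habS : IsMulCommutative (S : Subgroup K) := commutative_subtype K hT hab
  have hcard : Nat.card (Y.subgroupOf K) = Nat.card Y :=
    Nat.card_congr (Subgroup.subgroupOfEquivOfLe hYK).toEquiv
  have hY' : ¬ 2 ∣ Nat.card (Y.subgroupOf K) := by rw [hcard]; exact hY
  have hnorm : (S : Subgroup K) ≤ Subgroup.normalizer ((Y.subgroupOf K : Subgroup K) : Set K) := by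
    intro s hs
    rw [hS] at hs
    have hs' : (s : G) ∈ (T : Subgroup G) := hs
    rw [Subgroup.mem_normalizer_iff]
    intro x
    have h1 := Subgroup.mem_normalizer_iff.mp (hTY hs') (x : G)
    simpa [Subgroup.mem_subgroupOf] using h1
  have h := le_pPrimeCore_of_odd S habS (Y.subgroupOf K) hY' hnorm
  intro y hy
  exact Subgroup.mem_map.mpr ⟨⟨y, hYK hy⟩, h hy, rfl⟩

end Ambient

end Cfsg.Agent.Lib.Loc5.Local
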