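import Mathlib
import Cfsg.Agent.Lib.Loc5.Eigen
import Cfsg.Agent.Lib.Loc5.Local
import Cfsg.Agent.Lib.Loc5.Count
import Cfsg.Agent.Lib.Solvable.Hall
import Cfsg.Agent.Lib.Coprime.InvSylow
import Cfsg.Agent.Lib.Coprime.GenerationE
import Cfsg.Agent.Lib.PGroup.QDSylow6
import Cfsg.Agent.Lib.PGroup.Basic
import Cfsg.Agent.S0016

set_option autoImplicit false
set_option linter.unusedSectionVars false
set_option linter.style.haveILetI false
set_option linter.unusedVariables false

/-!
# The contradiction from a strongly embedded subgroup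

`G` simple with solvable proper subgroups, every `p'`-subgroup abelian of exponent dividing `p - 1`,
`p` odd.  If `M < G` contains `N(T)` and every `C(a)`, `1 ≠ a ∈ T`, then for `s ∉ M`, `t ∈ T`
involutions, `st` is a `p`-element outside `M`, lying in a `t`-invariant Sylow `p`-subgroup `P`.
A complement `H₀ ∋ t` of `P` in `N(P)` has order `≡ 1 (mod p)`, so `P = ⟨C_P(w) : 1 ≠ w ∈ H₀⟩`, while
`C(w) ≤ M` for these `w`: contradiction.
-/

namespace Cfsg.Agent.Lib.Loc5.Final

open Cfsg Cfsg.Agent.Lib.Loc5.Count Cfsg.Agent.Lib.Loc5.Local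
open scoped commutatorElement

universe u

variable {G : Type u} [Group G] [Finite G]

theorem conj_conj_of_sq {t y : G} (ht : t * t = 1) : t * (t * y * t⁻¹) * t⁻¹ = y := by
  have h1 : t * (t * y * t⁻¹) * t⁻¹ = (t * t) * y * (t * t)⁻¹ := by group
  rw [h1, ht]
  group

section Omega

/-- `Ω₁` of an abelian subgroup, for the prime 2. -/
def omegaTwo (S : Subgroup G) (hab : ∀ a ∈ S, ∀ b ∈ S, a * b = b * a) : Subgroup G where
  carrier := {x | x ∈ S ∧ x * x = 1}
  mul_mem' := by
    rintro a b ⟨ha, ha2⟩ ⟨hb, hb2⟩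
    refine ⟨S.mul_mem ha hb, ?_⟩
    calc a * b * (a * b) = a * (b * a) * b := by group
      _ = a * (a * b) * b := by rw [hab b hb a ha]
      _ = (a * a) * (b * b) := by group
      _ = 1 := by rw [ha2, hb2, one_mul]
  one_mem' := ⟨S.one_mem, one_mul 1⟩
  inv_mem' := by
    rintro a ⟨ha, ha2⟩
    refine ⟨S.inv_mem ha, ?_⟩
    rw [← mul_inv_rev, ha2, inv_one]

theorem mem_omegaTwo {S : Subgroup G} {hab : ∀ a ∈ S, ∀ b ∈ S, a * b = b * a} {x : G} :
    x ∈ omegaTwo S hab ↔ x ∈ S ∧ x * x = 1 := Iff.rfl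

theorem omegaTwo_le (S : Subgroup G) (hab : ∀ a ∈ S, ∀ b ∈ S, a * b = b * a) :
    omegaTwo S hab ≤ S := fun _ hx => hx.1

theorem isElementaryAbelian_omegaTwo (S : Subgroup G) (hab : ∀ a ∈ S, ∀ b ∈ S, a * b = b * a) :
    IsElementaryAbelian 2 (omegaTwo S hab) := by
  refine ⟨⟨⟨fun a b => ?_⟩⟩, fun a ha => by rw [pow_two]; exact ha.2⟩
  apply Subtype.ext
  exact hab a a.2.1 b b.2.1

/-- A power of two, at least three, is at least four. -/
theorem four_le_of_three_le {n : ℕ} (h3 : 3 ≤ n) (hn : ∃ k, n = 2 ^ k) : 4 ≤ n := by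
  obtain ⟨k, rfl⟩ := hn
  match k, h3 with
  | 0, h => omega
  | 1, h => omega
  | (k + 2), h =>
    have : 2 ^ (k + 2) = 4 * 2 ^ k := by ring
    have h1 : 1 ≤ 2 ^ k := Nat.one_le_two_pow
    omega

/-- A finite abelian 2-group with at most one involution is cyclic. -/
theorem exists_two_involutions {S : Type*} [Group S] [Finite S] (hS : IsPGroup 2 S)
    (hab : ∀ a b : S, a * b = b * a) (hnc : ¬ IsCyclic S) :
    ∃ a b : S, a ≠ 1 ∧ b ≠ 1 ∧ a ≠ b ∧ a * a = 1 ∧ b * b = 1 := by
  classical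
  haveI : Fact (Nat.Prime 2) := ⟨Nat.prime_two⟩
  by_contra hcon
  have hinv : ∀ H : Subgroup S, Nat.card H = 2 → ∃ a : S, a ≠ 1 ∧ a * a = 1 ∧ H = Subgroup.zpowers a := by
    intro H hH
    haveI : Nontrivial H := by
      rw [← Finite.one_lt_card_iff_nontrivial, hH]
      omega
    obtain ⟨a, ha⟩ := exists_ne (1 : H)
    have ha' : (a : S) ≠ 1 := fun h => ha (Subtype.ext h)
    have hao : orderOf a = 2 := by
      have h1 : orderOf a ∣ 2 := hH ▸ orderOf_dvd_natCard a
      rcases (Nat.dvd_prime Nat.prime_two).mp h1 with h | h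
      · exact absurd (orderOf_eq_one_iff.mp h) ha
      · exact h
    have ha2 : (a : S) * a = 1 := by
      have : a ^ 2 = 1 := hao ▸ pow_orderOf_eq_one a
      have h2 := congrArg Subtype.val this
      simpa [pow_two] using h2
    refine ⟨a, ha', ha2, ?_⟩
    symm
    apply Subgroup.eq_of_le_of_card_ge
    · exact Subgroup.zpowers_le.mpr a.2
    · rw [hH, Nat.card_zpowers, Subgroup.orderOf_coe, hao]
  have huniq : ∀ H K : Subgroup S, Nat.card H = 2 → Nat.card K = 2 → H = K := by
    intro H K hH hK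
    obtain ⟨a, ha1, ha2, rfl⟩ := hinv H hH
    obtain ⟨b, hb1, hb2, rfl⟩ := hinv K hK
    by_cases hab' : a = b
    · rw [hab']
    · exact absurd ⟨a, b, ha1, hb1, hab', ha2, hb2⟩ hcon
  rcases Cfsg.Agent.S0016.result 2 hS huniq with hc | ⟨-, n, ⟨e⟩⟩
  · exact hnc hc
  · apply hnc
    by_cases hn : n = 0
    · subst hn
      have e' : S ≃* QuaternionGroup 1 := e
      haveI : IsCyclic (QuaternionGroup 1) := QuaternionGroup.quaternionGroup_one_isCyclic
      exact isCyclic_of_surjective e'.symm e'.symm.surjective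
    · exfalso
      have h1 := hab (e.symm (QuaternionGroup.a 1)) (e.symm (QuaternionGroup.xa 0))
      rw [← map_mul, ← map_mul] at h1
      have h2 := e.symm.injective h1
      rw [QuaternionGroup.a_mul_xa, QuaternionGroup.xa_mul_a, QuaternionGroup.xa.injEq] at h2
      have h3 : (2 : ZMod (2 * 2 ^ n)) = 0 := by
        have : (0 : ZMod (2 * 2 ^ n)) - 1 = 0 + 1 := h2
        linear_combination -this
      have h4 : (2 * 2 ^ n) ∣ 2 := by
        have := (ZMod.natCast_eq_zero_iff 2 (2 * 2 ^ n)).mp (by exact_mod_cast h3)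
        exact this
      have h5 : 2 ^ n ≥ 2 := by
        calc 2 ^ n ≥ 2 ^ 1 := Nat.pow_le_pow_right (by norm_num) (Nat.pos_of_ne_zero hn)
          _ = 2 := by norm_num
      have h6 := Nat.le_of_dvd (by norm_num) h4
      omega

end Omega

section Hall

/-- A Hall subgroup containing a given element of coprime order. -/
theorem exists_hall_mem {X : Type u} [Group X] [Finite X] [Group.IsSolvable X] (m n : ℕ)
    (hX : Nat.card X = m * n) (hmn : m.Coprime n) (w : X) (hw : (orderOf w).Coprime n) :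
    ∃ B : Subgroup X, Nat.card B = m ∧ w ∈ B := by
  obtain ⟨H, hH⟩ := Cfsg.Agent.Lib.Solvable.Hall.exists_card_eq m n hX hmn
  obtain ⟨g, hg⟩ := Cfsg.Agent.Lib.Solvable.Hall.exists_conj_le m n hX hmn H (Subgroup.zpowers w) hH
    (by rw [Nat.card_zpowers]; exact hw)
  refine ⟨H.map (MulAut.conj g⁻¹).toMonoidHom, ?_, ?_⟩
  · rw [← hH]
    exact Subgroup.card_map_of_injective (MulAut.conj g⁻¹).injective
  · have h1 : (MulAut.conj g).toMonoidHom w ∈ H :=
      hg (Subgroup.mem_map_of_mem _ (Subgroup.mem_zpowers w))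
    refine Subgroup.mem_map.mpr ⟨_, h1, ?_⟩
    simp only [MulEquiv.coe_toMonoidHom, MulAut.conj_apply]
    group

end Hall

/-- `M` contains the normalizer of the Sylow 2-subgroup `T` and the centralizers of its elements. -/
structure SE (T : Sylow 2 G) (M : Subgroup G) : Prop where
  ne_top : M ≠ ⊤
  norm : Subgroup.normalizer (((T : Subgroup G)) : Set G) ≤ M
  cent : ∀ a ∈ (T : Subgroup G), a ≠ 1 → Subgroup.centralizer {a} ≤ M

namespace SE

variable {T : Sylow 2 G} {M : Subgroup G}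

theorem le (hM : SE T M) : (T : Subgroup G) ≤ M := Subgroup.le_normalizer.trans hM.norm

/-- A 2-element of `M` is `M`-conjugate into `T`. -/
theorem exists_conj (hM : SE T M) {a : G} (ha : a ∈ M) {k : ℕ} (hk : a ^ (2 ^ k) = 1) :
    ∃ m ∈ M, m⁻¹ * a * m ∈ (T : Subgroup G) := by
  classical
  haveI : Fact (Nat.Prime 2) := ⟨Nat.prime_two⟩
  let S : Sylow 2 M := T.subtype hM.le
  have hS : (S : Subgroup M) = (T : Subgroup G).subgroupOf M := Sylow.coe_subtype T hM.le
  have hzp : IsPGroup 2 (Subgroup.zpowers (⟨a, ha⟩ : M)) := by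
    rw [IsPGroup.iff_card, Nat.card_zpowers]
    have h1 : orderOf (⟨a, ha⟩ : M) ∣ 2 ^ k := by
      apply orderOf_dvd_of_pow_eq_one
      apply Subtype.ext
      simpa using hk
    obtain ⟨j, -, hj⟩ := (Nat.dvd_prime_pow Nat.prime_two).mp h1
    exact ⟨j, hj⟩
  obtain ⟨Q, hQ⟩ := hzp.exists_le_sylow
  obtain ⟨g, hg⟩ := MulAction.exists_smul_eq M Q S
  have h1 : (⟨a, ha⟩ : M) ∈ (Q : Subgroup M) := hQ (Subgroup.mem_zpowers _)
  have h2 : g * ⟨a, ha⟩ * g⁻¹ ∈ (S : Subgroup M) := by
    rw [← hg, Sylow.coe_subgroup_smul]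
    exact Subgroup.mem_pointwise_smul_iff_inv_smul_mem.mpr (by
      simpa [MulAut.smul_def, MulAut.conj_apply, mul_assoc] using h1)
  rw [hS] at h2
  refine ⟨(g⁻¹ : M), (g⁻¹ : M).2, ?_⟩
  have h3 : ((g * ⟨a, ha⟩ * g⁻¹ : M) : G) ∈ (T : Subgroup G) := h2
  simpa using h3

/-- The centralizer of a nontrivial 2-element of `M` lies in `M`. -/
theorem cent_le (hM : SE T M) {a : G} (ha : a ∈ M) (ha1 : a ≠ 1) {k : ℕ} (hk : a ^ (2 ^ k) = 1) :
    Subgroup.centralizer {a} ≤ M := by
  obtain ⟨m, hm, hmT⟩ := hM.exists_conj ha hk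
  have hne : m⁻¹ * a * m ≠ 1 := by
    intro h
    apply ha1
    have : a = m * (m⁻¹ * a * m) * m⁻¹ := by group
    rw [this, h]
    group
  intro x hx
  rw [Subgroup.mem_centralizer_singleton_iff] at hx
  have h1 : m⁻¹ * x * m ∈ Subgroup.centralizer {m⁻¹ * a * m} := by
    rw [Subgroup.mem_centralizer_singleton_iff]
    calc m⁻¹ * x * m * (m⁻¹ * a * m) = m⁻¹ * (x * a) * m := by group
      _ = m⁻¹ * (a * x) * m := by rw [hx]
      _ = m⁻¹ * a * m * (m⁻¹ * x * m) := by group
  have h2 := hM.cent _ hmT hne h1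
  have h3 : x = m * (m⁻¹ * x * m) * m⁻¹ := by group
  rw [h3]
  exact M.mul_mem (M.mul_mem hm h2) (M.inv_mem hm)

/-- The normalizer of any Sylow 2-subgroup of `G` inside `M` lies in `M`. -/
theorem norm_le (hM : SE T M) {R : Sylow 2 G} (hR : (R : Subgroup G) ≤ M) :
    Subgroup.normalizer ((R : Subgroup G) : Set G) ≤ M := by
  classical
  haveI : Fact (Nat.Prime 2) := ⟨Nat.prime_two⟩
  obtain ⟨g, hg⟩ := MulAction.exists_smul_eq M (T.subtype hM.le) (R.subtype hR)
  have hmem : ∀ y : G, y ∈ (T : Subgroup G) → (g : G) * y * (g : G)⁻¹ ∈ (R : Subgroup G) := by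
    intro y hy
    have hyM := hM.le hy
    have h1 : (⟨y, hyM⟩ : M) ∈ ((T.subtype hM.le : Sylow 2 M) : Subgroup M) := by
      rw [Sylow.coe_subtype]; exact hy
    have h2 : g * ⟨y, hyM⟩ * g⁻¹ ∈ ((R.subtype hR : Sylow 2 M) : Subgroup M) := by
      rw [← hg, Sylow.coe_subgroup_smul]
      exact Subgroup.mem_pointwise_smul_iff_inv_smul_mem.mpr (by
        simpa [MulAut.smul_def, MulAut.conj_apply, mul_assoc] using h1)
    rw [Sylow.coe_subtype] at h2
    exact h2
  have hmem' : ∀ y : G, y ∈ (R : Subgroup G) → (g : G)⁻¹ * y * (g : G) ∈ (T : Subgroup G) := by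
    intro y hy
    have hyM := hR hy
    have h1 : (⟨y, hyM⟩ : M) ∈ ((R.subtype hR : Sylow 2 M) : Subgroup M) := by
      rw [Sylow.coe_subtype]; exact hy
    have h2 : g⁻¹ * ⟨y, hyM⟩ * g ∈ ((T.subtype hM.le : Sylow 2 M) : Subgroup M) := by
      rw [← hg, Sylow.coe_subgroup_smul] at h1
      have h3 := Subgroup.mem_pointwise_smul_iff_inv_smul_mem.mp h1
      simpa [MulAut.smul_def, MulAut.conj_apply, mul_assoc] using h3
    rw [Sylow.coe_subtype] at h2
    exact h2
  intro x hx
  have hx' : (g : G)⁻¹ * x * (g : G) ∈ Subgroup.normalizer ((T : Subgroup G) : Set G) := by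
    rw [Subgroup.mem_normalizer_iff]
    intro y
    rw [Subgroup.mem_normalizer_iff] at hx
    constructor
    · intro hy
      have h1 := hmem y hy
      have h2 := (hx _).mp h1
      have h3 := hmem' _ h2
      convert h3 using 1
      group
    · intro hy
      have h1 := hmem _ hy
      have h2 : x * ((g : G) * y * (g : G)⁻¹) * x⁻¹ ∈ (R : Subgroup G) := by
        convert h1 using 1
        group
      have h3 := (hx _).mpr h2
      have h4 := hmem' _ h3
      convert h4 using 1
      group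
  have h5 := hM.norm hx'
  have h6 : x = (g : G) * ((g : G)⁻¹ * x * (g : G)) * (g : G)⁻¹ := by group
  rw [h6]
  exact M.mul_mem (M.mul_mem g.2 h5) (M.inv_mem g.2)

/-- An odd order subgroup normalized by an elementary abelian 2-subgroup of `M` of rank `≥ 2`
lies in `M`. -/
theorem le_of_odd (hM : SE T M) {A K : Subgroup G} (hA : IsElementaryAbelian 2 A)
    (hA4 : 4 ≤ Nat.card A) (hAM : A ≤ M) (hK : ¬ 2 ∣ Nat.card K)
    (hAK : A ≤ Subgroup.normalizer (K : Set G)) : K ≤ M := by
  classical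
  haveI : Fact (Nat.Prime 2) := ⟨Nat.prime_two⟩
  refine (Cfsg.Agent.Lib.Coprime.GenerationE.le_iSup_relIndex_le A K hA hK hAK).trans (iSup_le ?_)
  rintro ⟨B, hBA, hi⟩
  have hBne : B ≠ ⊥ := by
    rintro rfl
    have h1 : (⊥ : Subgroup G).relIndex A = Nat.card A := Subgroup.relIndex_bot_left A
    have h2 : (⊥ : Subgroup G).relIndex A ≤ 2 := hi
    omega
  obtain ⟨b, hb, hb1⟩ := (Subgroup.ne_bot_iff_exists_ne_one.mp hBne |>.imp fun x hx => hx) |> fun ⟨x, hx⟩ =>
    (⟨(x : G), x.2, fun h => hx (Subtype.ext h)⟩ : ∃ b : G, b ∈ B ∧ b ≠ 1)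
  have hbA := hBA hb
  have hbpow : b ^ (2 ^ 1) = 1 := by simpa using hA.2 b hbA
  have h1 := hM.cent_le (hAM hbA) hb1 hbpow
  intro x hx
  apply h1
  rw [Subgroup.mem_centralizer_singleton_iff]
  exact (Subgroup.mem_centralizer_iff.mp hx.2 b hb).symm

end SE

section Main

variable {p : ℕ} [hp : Fact p.Prime]

theorem two_coprime (hp2 : p ≠ 2) : (2 : ℕ).Coprime p :=
  (Nat.coprime_primes Nat.prime_two hp.out).mpr (Ne.symm hp2)

/-- 2-subgroups are abelian. -/
theorem comm_of_two (hp2 : p ≠ 2) (h : Hyp p G) {R : Subgroup G} (hR : IsPGroup 2 R) :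
    ∀ a ∈ R, ∀ b ∈ R, a * b = b * a := by
  have hc : (Nat.card R).Coprime p := by
    obtain ⟨k, hk⟩ := IsPGroup.iff_card.mp hR
    rw [hk]
    exact Nat.Coprime.pow_left k (two_coprime hp2)
  exact fun a ha b hb => h.comm hc ha hb

variable [IsSimpleGroup G]

theorem centralizer_ne_top (hns : ¬ Group.IsSolvable G) {w : G} (hw : w ≠ 1) :
    Subgroup.centralizer {w} ≠ ⊤ := by
  intro htop
  have hwz : w ∈ Subgroup.center G := by
    rw [Subgroup.mem_center_iff]
    intro g
    have : g ∈ Subgroup.centralizer {w} := by rw [htop]; trivial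
    rw [Subgroup.mem_centralizer_singleton_iff] at this
    exact this
  rcases (inferInstance : (Subgroup.center G).Normal).eq_bot_or_eq_top with h0 | h1
  · rw [h0, Subgroup.mem_bot] at hwz
    exact hw hwz
  · apply hns
    have hcomm : ∀ a b : G, a * b = b * a := fun a b => by
      have : a ∈ Subgroup.center G := by rw [h1]; trivial
      exact (Subgroup.mem_center_iff.mp this b).symm
    letI : CommGroup G := { (inferInstance : Group G) with mul_comm := hcomm }
    infer_instance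

theorem commutator_eq_top (hns : ¬ Group.IsSolvable G) : commutator G = ⊤ := by
  rcases (inferInstance : (commutator G).Normal).eq_bot_or_eq_top with h0 | h1
  · exfalso
    apply hns
    have hcomm : ∀ a b : G, a * b = b * a := fun a b => by
      have h2 : ⁅a, b⁆ ∈ commutator G := Subgroup.commutator_mem_commutator (Subgroup.mem_top a)
        (Subgroup.mem_top b)
      rw [h0, Subgroup.mem_bot] at h2
      exact commutatorElement_eq_one_iff_mul_comm.mp h2
    letI : CommGroup G := { (inferInstance : Group G) with mul_comm := hcomm }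
    infer_instance
  · exact h1

theorem normalizer_ne_top (hns : ¬ Group.IsSolvable G) {W : Subgroup G} (hW : W ≠ ⊥)
    (hWs : Group.IsSolvable W) : Subgroup.normalizer (W : Set G) ≠ ⊤ := by
  intro htop
  have hn : W.Normal := Subgroup.normalizer_eq_top_iff.mp htop
  rcases hn.eq_bot_or_eq_top with h0 | h1
  · exact hW h0
  · subst h1
    apply hns
    exact Group.isSolvable_of_surjective (f := (⊤ : Subgroup G).subtype) (fun g => ⟨⟨g, trivial⟩, rfl⟩)

variable {T : Sylow 2 G} {M : Subgroup G}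

/-- Centralizers of elements commuting with a Sylow 2-subgroup inside `M` lie in `M`. -/
theorem centralizer_le_of_sylow (hns : ¬ Group.IsSolvable G)
    (hS : ∀ K : Subgroup G, K ≠ ⊤ → Group.IsSolvable K) (hM : SE T M) {R : Sylow 2 G}
    (hRM : (R : Subgroup G) ≤ M) (hab : IsMulCommutative (R : Subgroup G))
    {A : Subgroup G} (hA : IsElementaryAbelian 2 A) (hA4 : 4 ≤ Nat.card A)
    (hAR : A ≤ (R : Subgroup G)) {w : G} (hw : w ≠ 1)
    (hRw : (R : Subgroup G) ≤ Subgroup.centralizer {w}) : Subgroup.centralizer {w} ≤ M := by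
  classical
  haveI : Fact (Nat.Prime 2) := ⟨Nat.prime_two⟩
  set K := Subgroup.centralizer {w} with hK
  haveI : Group.IsSolvable K := hS K (centralizer_ne_top hns hw)
  have hoddM : oddOf K ≤ M := by
    refine hM.le_of_odd hA hA4 (hAR.trans hRM) (not_two_dvd_card_oddOf K) ?_
    intro a ha
    rw [Subgroup.mem_normalizer_iff]
    intro x
    have haK : a ∈ K := hRw (hAR ha)
    constructor
    · exact conj_mem_oddOf K haK
    · intro hx
      have := conj_mem_oddOf K (K.inv_mem haK) hx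
      simpa [mul_assoc] using this
  intro c hc
  obtain ⟨d, hd, n, hn, -, rfl⟩ := exists_mul_of_mem K hRw hab hc
  exact M.mul_mem (hM.norm_le hRM hn) (hoddM hd)

/-- A Sylow 2-subgroup of `C(t)` commuting with a given `p'`-element of `C(t)`. -/
theorem exists_sylow_comm (hp2 : p ≠ 2) (h : Hyp p G)
    (hS : ∀ K : Subgroup G, K ≠ ⊤ → Group.IsSolvable K) (hns : ¬ Group.IsSolvable G) {t w : G}
    (ht1 : t ≠ 1) (ht : t * t = 1) (hw : w ∈ Subgroup.centralizer {t})
    (hwp : (orderOf w).Coprime p) :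
    ∃ R : Sylow 2 G, (R : Subgroup G) ≤ Subgroup.centralizer {t} ∧
      (R : Subgroup G) ≤ Subgroup.centralizer {w} := by
  classical
  haveI : Fact (Nat.Prime 2) := ⟨Nat.prime_two⟩
  set X := Subgroup.centralizer {t} with hX
  haveI : Group.IsSolvable X := hS X (centralizer_ne_top hns ht1)
  have hcardX : Nat.card X = ordCompl[p] (Nat.card X) * ordProj[p] (Nat.card X) := by
    rw [mul_comm, Nat.ordProj_mul_ordCompl_eq_self]
  have hcop : (ordCompl[p] (Nat.card X)).Coprime (ordProj[p] (Nat.card X)) := by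
    apply Nat.Coprime.pow_right
    exact (Nat.coprime_comm.mp ((Nat.Prime.coprime_iff_not_dvd hp.out).mpr
      (Nat.not_dvd_ordCompl hp.out Nat.card_pos.ne')))
  obtain ⟨B, hBc, hwB⟩ := exists_hall_mem (ordCompl[p] (Nat.card X)) (ordProj[p] (Nat.card X))
    hcardX hcop (⟨w, hw⟩ : X) (by
      rw [Subgroup.orderOf_mk]
      exact Nat.Coprime.pow_right _ hwp)
  -- the image of `B` in `G`
  set B' : Subgroup G := B.map X.subtype with hB'
  have hB'c : Nat.card B' = ordCompl[p] (Nat.card X) := by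
    rw [hB', ← hBc]
    exact Subgroup.card_map_of_injective X.subtype_injective
  have hB'p : (Nat.card B').Coprime p := by
    rw [hB'c]
    exact (Nat.Prime.coprime_iff_not_dvd hp.out).mpr (Nat.not_dvd_ordCompl hp.out Nat.card_pos.ne') |>.symm
  -- a Sylow 2-subgroup of `B'`
  obtain ⟨Q⟩ : Nonempty (Sylow 2 B') := inferInstance
  set R' : Subgroup G := (Q : Subgroup B').map B'.subtype with hR'
  have hR'c : Nat.card R' = 2 ^ (Nat.card G).factorization 2 := by
    have h1 : Nat.card R' = Nat.card (Q : Subgroup B') :=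
      Subgroup.card_map_of_injective B'.subtype_injective
    rw [h1, Q.card_eq_multiplicity]
    congr 1
    -- compare 2-parts
    apply le_antisymm
    · have hd : Nat.card B' ∣ Nat.card G := Subgroup.card_subgroup_dvd_card B'
      exact (Nat.factorization_le_iff_dvd Nat.card_pos.ne' Nat.card_pos.ne').mpr hd 2
    · obtain ⟨Tt, hTt⟩ : ∃ Tt : Sylow 2 G, t ∈ (Tt : Subgroup G) := by
        have hzp : IsPGroup 2 (Subgroup.zpowers t) := by
          rw [IsPGroup.iff_card, Nat.card_zpowers]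
          have h2 : orderOf t ∣ 2 ^ 1 := orderOf_dvd_of_pow_eq_one (by simpa [pow_two] using ht)
          obtain ⟨j, -, hj⟩ := (Nat.dvd_prime_pow Nat.prime_two).mp h2
          exact ⟨j, hj⟩
        obtain ⟨Q', hQ'⟩ := hzp.exists_le_sylow
        exact ⟨Q', hQ' (Subgroup.mem_zpowers t)⟩
      have hTtX : (Tt : Subgroup G) ≤ X := by
        intro y hy
        rw [hX, Subgroup.mem_centralizer_singleton_iff]
        exact comm_of_two hp2 h Tt.2 y hy t hTt
      have hd2 : 2 ^ (Nat.card G).factorization 2 ∣ Nat.card X := by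
        rw [← Tt.card_eq_multiplicity]
        exact Subgroup.card_dvd_of_le hTtX
      have hd3 : 2 ^ (Nat.card G).factorization 2 ∣ Nat.card B' := by
        rw [hB'c]
        have hcop2 : (2 ^ (Nat.card G).factorization 2).Coprime (ordProj[p] (Nat.card X)) :=
          Nat.Coprime.pow _ _ (two_coprime hp2)
        have : 2 ^ (Nat.card G).factorization 2 ∣
            ordCompl[p] (Nat.card X) * ordProj[p] (Nat.card X) := by
          rwa [← hcardX]
        exact hcop2.dvd_of_dvd_mul_right this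
      exact (Nat.Prime.pow_dvd_iff_le_factorization Nat.prime_two Nat.card_pos.ne').mp hd3
  let R : Sylow 2 G := Sylow.ofCard R' hR'c
  have hR : (R : Subgroup G) = R' := Sylow.coe_ofCard R' hR'c
  refine ⟨R, ?_, ?_⟩
  · rw [hR, hR']
    rintro _ ⟨y, -, rfl⟩
    obtain ⟨z, -, hz⟩ := Subgroup.mem_map.mp y.2
    rw [Subgroup.subtype_apply, ← hz]
    exact z.2
  · rw [hR, hR']
    rintro _ ⟨y, -, rfl⟩
    rw [Subgroup.mem_centralizer_singleton_iff]
    have hwB' : w ∈ B' := Subgroup.mem_map.mpr ⟨⟨w, hw⟩, hwB, rfl⟩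
    exact h.comm hB'p y.2 hwB'

/-- `x` lies in a `t`-invariant Sylow `p`-subgroup, if `t ∈ M` inverts the `p`-element `x ∉ M`. -/
theorem exists_sylow_inv (hp2 : p ≠ 2) (h : Hyp p G)
    (hS : ∀ K : Subgroup G, K ≠ ⊤ → Group.IsSolvable K) (hns : ¬ Group.IsSolvable G)
    (hM : SE T M) {t x : G} (htM : t ∈ M) (ht1 : t ≠ 1) (ht : t * t = 1) (hxM : x ∉ M)
    {a : ℕ} (hxp : x ^ (p ^ a) = 1) (hinv : t * x * t⁻¹ = x⁻¹) :
    ∃ P : Sylow p G, x ∈ (P : Subgroup G) ∧
      t ∈ Subgroup.normalizer ((P : Subgroup G) : Set G) := by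
  classical
  haveI : Fact (Nat.Prime 2) := ⟨Nat.prime_two⟩
  have ht' : t⁻¹ = t := inv_eq_of_mul_eq_one_left ht
  let 𝓦 : Set (Subgroup G) := {W | IsPGroup p W ∧ x ∈ W ∧ t ∈ Subgroup.normalizer (W : Set G)}
  have hne : 𝓦.Nonempty := by
    refine ⟨Subgroup.zpowers x, ?_, Subgroup.mem_zpowers x, ?_⟩
    · rw [IsPGroup.iff_card, Nat.card_zpowers]
      obtain ⟨j, -, hj⟩ := (Nat.dvd_prime_pow hp.out).mp (orderOf_dvd_of_pow_eq_one hxp)
      exact ⟨j, hj⟩
    · have key : ∀ y ∈ Subgroup.zpowers x, t * y * t⁻¹ ∈ Subgroup.zpowers x := by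
        rintro _ ⟨k, rfl⟩
        have : t * x ^ k * t⁻¹ = (x⁻¹) ^ k := by
          rw [← hinv, conj_zpow]
        simp only
        rw [this]
        exact Subgroup.zpow_mem _ (Subgroup.inv_mem _ (Subgroup.mem_zpowers x)) k
      rw [Subgroup.mem_normalizer_iff]
      intro y
      refine ⟨key y, fun hy => ?_⟩
      have := key _ hy
      rwa [conj_conj_of_sq ht] at this
  obtain ⟨W, hW⟩ := Set.Finite.exists_maximal (Set.toFinite 𝓦) hne
  obtain ⟨hWp, hxW, htW⟩ := hW.prop
  have hx1 : x ≠ 1 := fun h1 => hxM (h1 ▸ M.one_mem)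
  have hWbot : W ≠ ⊥ := fun h0 => hx1 (by simpa [h0] using hxW)
  have hWsolv : Group.IsSolvable W := by
    haveI := hWp.isNilpotent
    infer_instance
  set L : Subgroup G := Subgroup.normalizer (W : Set G) with hL
  have hLne : L ≠ ⊤ := normalizer_ne_top hns hWbot hWsolv
  haveI : Group.IsSolvable L := hS L hLne
  have hWodd : ¬ 2 ∣ Nat.card W := by
    intro hd
    obtain ⟨k, hk⟩ := IsPGroup.iff_card.mp hWp
    rw [hk] at hd
    have := (Nat.prime_two.dvd_of_dvd_pow hd)
    exact hp2 ((Nat.prime_dvd_prime_iff_eq Nat.prime_two hp.out).mp this).symm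
  -- a Sylow 2-subgroup of `L` containing `t`
  have hzp : IsPGroup 2 (Subgroup.zpowers (⟨t, htW⟩ : L)) := by
    rw [IsPGroup.iff_card, Nat.card_zpowers]
    have h2 : orderOf (⟨t, htW⟩ : L) ∣ 2 ^ 1 := by
      apply orderOf_dvd_of_pow_eq_one
      apply Subtype.ext
      simpa [pow_two] using ht
    obtain ⟨j, -, hj⟩ := (Nat.dvd_prime_pow Nat.prime_two).mp h2
    exact ⟨j, hj⟩
  obtain ⟨S, hSt⟩ := hzp.exists_le_sylow
  have htS : (⟨t, htW⟩ : L) ∈ (S : Subgroup L) := hSt (Subgroup.mem_zpowers _)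
  -- the image of `S`
  set S' : Subgroup G := (S : Subgroup L).map L.subtype with hS'
  have hS'p : IsPGroup 2 S' := S.2.map _
  have hS'comm := comm_of_two hp2 h hS'p
  have htS' : t ∈ S' := Subgroup.mem_map.mpr ⟨_, htS, rfl⟩
  have hS'M : S' ≤ M := by
    intro y hy
    apply hM.cent_le htM ht1 (k := 1) (by simpa [pow_two] using ht)
    rw [Subgroup.mem_centralizer_singleton_iff]
    exact hS'comm y hy t htS'
  -- `S` is cyclic
  have hcyc : IsCyclic (S : Subgroup L) := by
    by_contra hnc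
    have habS : ∀ a b : (S : Subgroup L), a * b = b * a := by
      intro c d
      apply Subtype.ext
      apply Subtype.ext
      have hc : (((c : (S : Subgroup L)) : L) : G) ∈ S' := Subgroup.mem_map_of_mem _ c.2
      have hd : (((d : (S : Subgroup L)) : L) : G) ∈ S' := Subgroup.mem_map_of_mem _ d.2
      exact hS'comm _ hc _ hd
    obtain ⟨c, d, hc1, hd1, hcd, hc2, hd2⟩ := exists_two_involutions S.2 habS hnc
    set A := omegaTwo S' hS'comm with hA
    have hcA : (((c : (S : Subgroup L)) : L) : G) ∈ A := by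
      refine ⟨Subgroup.mem_map_of_mem _ c.2, ?_⟩
      have := congrArg (fun z : (S : Subgroup L) => ((z : L) : G)) hc2
      simpa using this
    have hdA : (((d : (S : Subgroup L)) : L) : G) ∈ A := by
      refine ⟨Subgroup.mem_map_of_mem _ d.2, ?_⟩
      have := congrArg (fun z : (S : Subgroup L) => ((z : L) : G)) hd2
      simpa using this
    have hc1' : (((c : (S : Subgroup L)) : L) : G) ≠ 1 := fun h0 =>
      hc1 (Subtype.ext (Subtype.ext h0))
    have hd1' : (((d : (S : Subgroup L)) : L) : G) ≠ 1 := fun h0 =>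
      hd1 (Subtype.ext (Subtype.ext h0))
    have hcd' : (((c : (S : Subgroup L)) : L) : G) ≠ ((d : (S : Subgroup L)) : L) := fun h0 =>
      hcd (Subtype.ext (Subtype.ext h0))
    have hA3 : 3 ≤ Nat.card A := by
      have hsub : ({(1 : G), (((c : (S : Subgroup L)) : L) : G), (((d : (S : Subgroup L)) : L) : G)} :
          Set G) ⊆ (A : Set G) := by
        rintro y (rfl | rfl | rfl)
        · exact A.one_mem
        · exact hcA
        · exact hdA
      have h3 : ({(1 : G), (((c : (S : Subgroup L)) : L) : G), (((d : (S : Subgroup L)) : L) : G)} :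
          Set G).ncard = 3 :=
        Set.ncard_eq_three.mpr ⟨_, _, _, hc1'.symm, hd1'.symm, hcd', rfl⟩
      have h4 := Set.ncard_le_ncard hsub (Set.toFinite _)
      rw [h3] at h4
      exact h4
    have hA4 : 4 ≤ Nat.card A := by
      refine four_le_of_three_le hA3 ?_
      have hAp : IsPGroup 2 A := hS'p.to_le (omegaTwo_le S' hS'comm)
      exact IsPGroup.iff_card.mp hAp
    have hAL : A ≤ Subgroup.normalizer (W : Set G) := by
      intro y hy
      obtain ⟨z, -, hz⟩ := Subgroup.mem_map.mp hy.1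
      rw [← hz]
      exact z.2
    have hWM := hM.le_of_odd (isElementaryAbelian_omegaTwo S' hS'comm) hA4
      ((omegaTwo_le S' hS'comm).trans hS'M) hWodd hAL
    exact hxM (hWM hxW)
  -- a normal 2-complement
  obtain ⟨S₀, N, hNn, hNc⟩ := Cfsg.Agent.Lib.PGroup.QDSylow6.hasNormalPComplement_of_isCyclic S hcyc
  have hNidx : N.index = Nat.card (S₀ : Subgroup L) := hNc.symm.index_eq_card
  have hNodd : (Nat.card (S₀ : Subgroup L)).Coprime (Nat.card N) := by
    have h1 := S₀.card_coprime_index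
    have h2 : (S₀ : Subgroup L).index = Nat.card N := hNc.index_eq_card
    rwa [h2] at h1
  obtain ⟨k, hk⟩ := IsPGroup.iff_card.mp S₀.2
  set K : Subgroup G := N.map L.subtype with hK
  have hKc : Nat.card K = Nat.card N := Subgroup.card_map_of_injective L.subtype_injective
  have hKL : K ≤ L := Subgroup.map_subtype_le N
  -- `p`-elements of `L` lie in `K`
  have hpe : ∀ y : G, y ∈ L → (∃ b : ℕ, y ^ (p ^ b) = 1) → y ∈ K := by
    intro y hy ⟨b, hb⟩
    have h1 : (⟨y, hy⟩ : L) ^ N.index ∈ N := Subgroup.pow_index_mem N _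
    have h2 : orderOf (⟨y, hy⟩ : L) ∣ p ^ b := by
      apply orderOf_dvd_of_pow_eq_one
      apply Subtype.ext
      simpa using hb
    have h3 : N.index.Coprime (orderOf (⟨y, hy⟩ : L)) := by
      rw [hNidx, hk]
      apply Nat.Coprime.coprime_dvd_right h2
      exact Nat.Coprime.pow _ _ (two_coprime hp2)
    obtain ⟨m, hm⟩ := exists_pow_eq_self_of_coprime h3
    have h4 : (⟨y, hy⟩ : L) ∈ N := by
      rw [← hm]
      exact N.pow_mem h1 m
    exact Subgroup.mem_map.mpr ⟨_, h4, rfl⟩
  have hWK : W ≤ K := by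
    intro w hw
    obtain ⟨j, hj⟩ := hWp ⟨w, hw⟩
    refine hpe w (Subgroup.le_normalizer hw) ⟨j, ?_⟩
    have := congrArg Subtype.val hj
    simpa using this
  have htK : Subgroup.zpowers t ≤ Subgroup.normalizer (K : Set G) := by
    rw [Subgroup.zpowers_le, Subgroup.mem_normalizer_iff]
    have key : ∀ y ∈ K, t * y * t⁻¹ ∈ K := by
      intro y hy
      obtain ⟨n, hn, rfl⟩ := Subgroup.mem_map.mp hy
      refine Subgroup.mem_map.mpr ⟨⟨t, htW⟩ * n * ⟨t, htW⟩⁻¹, hNn.conj_mem n hn _, ?_⟩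
      simp
    intro y
    refine ⟨key y, fun hy => ?_⟩
    have := key _ hy
    rwa [conj_conj_of_sq ht] at this
  have hcopK : (Nat.card (Subgroup.zpowers t)).Coprime (Nat.card K) := by
    rw [hKc, Nat.card_zpowers]
    have h1 : orderOf t ∣ 2 ^ 1 := orderOf_dvd_of_pow_eq_one (by simpa [pow_two] using ht)
    rw [hk] at hNodd
    have h2 : Nat.Coprime (2 ^ 1) (Nat.card N) := by
      rcases Nat.eq_zero_or_pos k with rfl | hkpos
      · exfalso
        -- `S₀` trivial, but `t` is an involution of `L`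
        have h3 : Nat.card (S₀ : Subgroup L) = 1 := by rw [hk]; rfl
        have hSS : Nat.card (S : Subgroup L) = Nat.card (S₀ : Subgroup L) := by
          rw [S.card_eq_multiplicity, S₀.card_eq_multiplicity]
        rw [h3] at hSS
        have hbot : (S : Subgroup L) = ⊥ := Subgroup.card_eq_one.mp hSS
        rw [hbot, Subgroup.mem_bot] at htS
        exact ht1 (congrArg Subtype.val htS)
      · rw [pow_one]
        exact Nat.Coprime.coprime_dvd_left (dvd_pow_self 2 hkpos.ne') hNodd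
    exact Nat.Coprime.coprime_dvd_left h1 h2
  obtain ⟨R, hR⟩ := Cfsg.Agent.Lib.Coprime.InvSylow.exists_invariant_sylow htK hcopK
    (Or.inl inferInstance) p
  set R' : Subgroup G := (R : Subgroup K).map K.subtype with hR'
  have hWR : W ≤ R' := by
    intro w hw
    have hnorm : (W.subgroupOf K).Normal :=
      Subgroup.normal_subgroupOf_of_le_normalizer (hKL)
    have hp' : IsPGroup p (W.subgroupOf K) := hWp.comap_subtype
    have h1 : W.subgroupOf K ≤ (R : Subgroup K) :=
      (Cfsg.Agent.Lib.Basic.PCore.le_pCore hnorm hp').trans (Cfsg.Agent.Lib.Basic.PCore.pCore_le_sylow R)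
    exact Subgroup.mem_map.mpr ⟨⟨w, hWK hw⟩, h1 hw, rfl⟩
  have hR'𝓦 : R' ∈ 𝓦 :=
    ⟨R.2.map _, hWR hxW, hR (Subgroup.mem_zpowers t)⟩
  have hWeq : W = R' := hW.eq_of_le hR'𝓦 hWR
  obtain ⟨P, hWP⟩ := hWp.exists_le_sylow
  have hWPeq : W = (P : Subgroup G) := by
    by_contra hne'
    have hlt : W < (P : Subgroup G) := lt_of_le_of_ne hWP hne'
    obtain ⟨y, hyP, hyW, hyN⟩ :=
      Cfsg.Agent.Lib.PGroup.Basic.exists_mem_normalizer_of_lt P.2 hlt
    obtain ⟨j, hj⟩ := P.2 ⟨y, hyP⟩
    have hyK : y ∈ K := hpe y hyN ⟨j, by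
      have := congrArg Subtype.val hj
      simpa using this⟩
    have hQp : IsPGroup p ((P : Subgroup G).subgroupOf K) := P.2.comap_subtype
    have hRQ : (R : Subgroup K) ≤ (P : Subgroup G).subgroupOf K := by
      intro z hz
      show (z : G) ∈ (P : Subgroup G)
      apply hWP
      rw [hWeq]
      exact Subgroup.mem_map.mpr ⟨z, hz, rfl⟩
    have hQR := R.is_maximal' hQp hRQ
    have hyR : (⟨y, hyK⟩ : K) ∈ (R : Subgroup K) := by
      rw [← hQR]
      exact hyP
    apply hyW
    rw [hWeq]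
    exact Subgroup.mem_map.mpr ⟨_, hyR, rfl⟩
  refine ⟨P, hWP hxW, ?_⟩
  rw [← hWPeq]
  exact htW

/-- **The contradiction.** -/
theorem false_of_SE (hp2 : p ≠ 2) (h : Hyp p G)
    (hS : ∀ K : Subgroup G, K ≠ ⊤ → Group.IsSolvable K) (hns : ¬ Group.IsSolvable G)
    (hM : SE T M)
    (hrank : ∀ R : Sylow 2 G, 4 ≤ Nat.card (omegaTwo (R : Subgroup G) (comm_of_two hp2 h R.2))) :
    False := by
  classical
  haveI : Fact (Nat.Prime 2) := ⟨Nat.prime_two⟩
  -- an involution of `T`
  have hA0 := hrank T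
  haveI hnt : Nontrivial (omegaTwo (T : Subgroup G) (comm_of_two hp2 h T.2)) := by
    rw [← Finite.one_lt_card_iff_nontrivial]
    omega
  obtain ⟨⟨t, htA⟩, ht0⟩ := exists_ne (1 : omegaTwo (T : Subgroup G) (comm_of_two hp2 h T.2))
  have ht1 : t ≠ 1 := fun h0 => ht0 (Subtype.ext h0)
  have htT : t ∈ (T : Subgroup G) := htA.1
  have ht : t * t = 1 := htA.2
  have ht' : t⁻¹ = t := inv_eq_of_mul_eq_one_left ht
  have htM := hM.le htT
  have hCt : Subgroup.centralizer {t} ≤ M := hM.cent t htT ht1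
  -- a conjugate outside `M`
  obtain ⟨g, hg⟩ : ∃ g : G, g * t * g⁻¹ ∉ M := by
    by_contra hcon
    push Not at hcon
    apply hM.ne_top
    have hN : Subgroup.normalClosure {t} = ⊤ := by
      rcases (inferInstance : (Subgroup.normalClosure {t}).Normal).eq_bot_or_eq_top with h0 | h1
      · exfalso
        have : t ∈ Subgroup.normalClosure {t} := Subgroup.subset_normalClosure rfl
        rw [h0, Subgroup.mem_bot] at this
        exact ht1 this
      · exact h1
    rw [eq_top_iff, ← hN]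
    refine (Subgroup.closure_le _).mpr ?_
    intro y hy
    obtain ⟨a, ha, hay⟩ := Group.mem_conjugatesOfSet_iff.mp hy
    rw [Set.mem_singleton_iff] at ha
    subst ha
    obtain ⟨c, rfl⟩ := isConj_iff.mp hay
    exact hcon c
  obtain ⟨s, hsM, hs2⟩ : ∃ s, s ∉ M ∧ s * s = 1 := by
    refine ⟨g * t * g⁻¹, hg, ?_⟩
    calc g * t * g⁻¹ * (g * t * g⁻¹) = g * (t * t) * g⁻¹ := by group
      _ = 1 := by rw [ht]; group
  have hs' : s⁻¹ = s := inv_eq_of_mul_eq_one_left hs2
  obtain ⟨x, hx⟩ : ∃ x, x = s * t := ⟨_, rfl⟩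
  have hxi : x⁻¹ = t * s := by rw [hx, mul_inv_rev, ht', hs']
  have hinv : t * x * t⁻¹ = x⁻¹ := by
    rw [hxi, hx, ht']
    calc t * (s * t) * t = t * s * (t * t) := by group
      _ = t * s := by rw [ht, mul_one]
  have hinv2 : s * x * s⁻¹ = x⁻¹ := by
    rw [hxi, hx, hs']
    calc s * (s * t) * s = (s * s) * t * s := by group
      _ = t * s := by rw [hs2, one_mul]
  have hxM : x ∉ M := by
    intro hxM
    apply hsM
    have : s = x * t⁻¹ := by rw [hx]; group
    rw [this]
    exact M.mul_mem hxM (M.inv_mem htM)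
  have hx1 : x ≠ 1 := fun h0 => hxM (h0 ▸ M.one_mem)
  -- `x` has odd order
  have hodd : ¬ 2 ∣ orderOf x := by
    intro h2
    obtain ⟨z, hz⟩ : ∃ z, z = x ^ (orderOf x / 2) := ⟨_, rfl⟩
    have hzo : orderOf z = 2 := hz ▸ orderOf_pow_orderOf_div (orderOf_pos x).ne' h2
    have hz2 : z * z = 1 := by
      have := pow_orderOf_eq_one z
      rw [hzo, pow_two] at this
      exact this
    have hz1 : z ≠ 1 := by
      intro h0
      rw [h0, orderOf_one] at hzo
      omega
    have hzinv : z⁻¹ = z := inv_eq_of_mul_eq_one_left hz2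
    have hconj : ∀ c : G, c * x * c⁻¹ = x⁻¹ → c * z = z * c := by
      intro c hc
      have h3 : c * z * c⁻¹ = z⁻¹ := by
        rw [hz, ← conj_pow, hc, inv_pow]
      rw [hzinv] at h3
      exact mul_inv_eq_iff_eq_mul.mp h3
    have hzM : z ∈ M := by
      apply hCt
      rw [Subgroup.mem_centralizer_singleton_iff]
      exact (hconj t hinv).symm
    have hCz : Subgroup.centralizer {z} ≤ M :=
      hM.cent_le hzM hz1 (k := 1) (by simpa [pow_two] using hz2)
    apply hsM
    apply hCz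
    rw [Subgroup.mem_centralizer_singleton_iff]
    exact hconj s hinv2
  -- `x` is a `p`-element
  obtain ⟨a, b, hb, hab⟩ := Nat.exists_eq_pow_mul_and_not_dvd (orderOf_pos x).ne' p hp.out.ne_one
  obtain ⟨y, hy⟩ : ∃ y, y = x ^ (p ^ a) := ⟨_, rfl⟩
  have hyo : orderOf y = b := by
    rw [hy, orderOf_pow' x (pow_ne_zero a hp.out.ne_zero)]
    have h1 : (orderOf x).gcd (p ^ a) = p ^ a := by
      rw [hab]
      exact Nat.gcd_eq_right (Dvd.intro b rfl)
    rw [h1, hab, Nat.mul_div_cancel_left _ (pow_pos hp.out.pos a)]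
  have hyinv : t * y * t⁻¹ = y⁻¹ := by
    rw [hy, ← conj_pow, hinv, inv_pow]
  have hynorm : Subgroup.zpowers t ≤ Subgroup.normalizer ((Subgroup.zpowers y : Subgroup G) : Set G) := by
    rw [Subgroup.zpowers_le, Subgroup.mem_normalizer_iff]
    have key : ∀ u ∈ Subgroup.zpowers y, t * u * t⁻¹ ∈ Subgroup.zpowers y := by
      rintro _ ⟨k, rfl⟩
      have : t * y ^ k * t⁻¹ = (y⁻¹) ^ k := by
        rw [← hyinv, conj_zpow]
      simp only
      rw [this]
      exact Subgroup.zpow_mem _ (Subgroup.inv_mem _ (Subgroup.mem_zpowers y)) k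
    intro u
    refine ⟨key u, fun hu => ?_⟩
    have := key _ hu
    rwa [conj_conj_of_sq ht] at this
  have hycop : (Nat.card (Subgroup.zpowers y)).Coprime p := by
    rw [Nat.card_zpowers, hyo]
    exact ((Nat.Prime.coprime_iff_not_dvd hp.out).mpr hb).symm
  have htcop : (Nat.card (Subgroup.zpowers t)).Coprime p := by
    rw [Nat.card_zpowers]
    have h1 : orderOf t ∣ 2 ^ 1 := orderOf_dvd_of_pow_eq_one (by simpa [pow_two] using ht)
    exact Nat.Coprime.coprime_dvd_left h1 (by simpa using two_coprime hp2)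
  have hycomm : y * t = t * y := h.commute_of_le_normalizer hynorm hycop htcop
    (Subgroup.mem_zpowers y) (Subgroup.mem_zpowers t)
  have hy1 : y = 1 := by
    have h1 : y⁻¹ = y := by
      rw [← hyinv, ← hycomm, mul_assoc, mul_inv_cancel, mul_one]
    have h2 : y * y = 1 := by
      calc y * y = y⁻¹ * y := by rw [h1]
        _ = 1 := inv_mul_cancel y
    have h3 : orderOf y ∣ 2 := orderOf_dvd_of_pow_eq_one (by simpa [pow_two] using h2)
    have h4 : orderOf y ∣ orderOf x := by
      rw [hyo, hab]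
      exact Dvd.intro_left _ rfl
    have h5 : orderOf y = 1 := by
      rcases (Nat.dvd_prime Nat.prime_two).mp h3 with h6 | h6
      · exact h6
      · rw [h6] at h4
        exact absurd h4 hodd
    exact orderOf_eq_one_iff.mp h5
  -- the invariant Sylow subgroup
  obtain ⟨P, hxP, htP⟩ := exists_sylow_inv hp2 h hS hns hM htM ht1 ht hxM (hy ▸ hy1) hinv
  have hPbot : (P : Subgroup G) ≠ ⊥ := fun h0 => hx1 (by simpa [h0] using hxP)
  have hPsolv : Group.IsSolvable (P : Subgroup G) := by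
    haveI := P.2.isNilpotent
    infer_instance
  set L : Subgroup G := Subgroup.normalizer ((P : Subgroup G) : Set G) with hL
  haveI : Group.IsSolvable L := hS L (normalizer_ne_top hns hPbot hPsolv)
  set m := (P : Subgroup G).relIndex L with hm
  have hmmod : m ≡ 1 [MOD p] := relIndex_modEq_one h (commutator_eq_top hns) P
  have hcardL : Nat.card L = m * Nat.card (P : Subgroup G) := by
    have h1 := Subgroup.card_mul_index ((P : Subgroup G).subgroupOf L)
    have h2 : Nat.card ((P : Subgroup G).subgroupOf L) = Nat.card (P : Subgroup G) :=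
      Nat.card_congr (Subgroup.subgroupOfEquivOfLe Subgroup.le_normalizer).toEquiv
    rw [h2] at h1
    rw [mul_comm]
    exact h1.symm
  have hmcop : m.Coprime (Nat.card (P : Subgroup G)) := by
    have h1 : m ∣ (P : Subgroup G).index := by
      have := Subgroup.relIndex_mul_index (H := (P : Subgroup G)) (K := L) Subgroup.le_normalizer
      exact Dvd.intro _ this
    exact Nat.Coprime.coprime_dvd_left h1 P.card_coprime_index.symm
  obtain ⟨B, hBc, htB⟩ := exists_hall_mem m (Nat.card (P : Subgroup G)) hcardL hmcop (⟨t, htP⟩ : L) (by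
    rw [Subgroup.orderOf_mk, P.card_eq_multiplicity]
    apply Nat.Coprime.pow_right
    exact Nat.Coprime.coprime_dvd_left (orderOf_dvd_of_pow_eq_one (n := 2 ^ 1)
      (by simpa [pow_two] using ht)) (by simpa using two_coprime hp2))
  set H₀ : Subgroup G := B.map L.subtype with hH₀
  have hH₀c : Nat.card H₀ = m := by
    rw [← hBc]
    exact Subgroup.card_map_of_injective L.subtype_injective
  have hH₀L : H₀ ≤ L := Subgroup.map_subtype_le B
  have htH₀ : t ∈ H₀ := Subgroup.mem_map.mpr ⟨_, htB, rfl⟩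
  have hH₀cop : (Nat.card H₀).Coprime p := by
    rw [hH₀c]
    have h1 := hmmod.gcd_eq
    rw [Nat.Coprime, h1]
    simp
  have hpH₀ : p ≤ Nat.card H₀ := by
    by_contra hlt
    push Not at hlt
    rw [hH₀c] at hlt
    have h1 : m % p = 1 % p := hmmod
    rw [Nat.mod_eq_of_lt hlt, Nat.mod_eq_of_lt hp.out.one_lt] at h1
    have h2 : Nat.card H₀ = 1 := by rw [hH₀c, h1]
    have h3 : H₀ = ⊥ := Subgroup.card_eq_one.mp h2
    rw [h3, Subgroup.mem_bot] at htH₀
    exact ht1 htH₀
  have hgen := Cfsg.Agent.Lib.Loc5.Eigen.le_iSup_centralizer P.2 hH₀L hH₀cop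
    (fun a ha b hb => h.comm hH₀cop ha hb) (fun a ha => h.exp hH₀cop ha) hpH₀
  have hPM : (P : Subgroup G) ≤ M := by
    refine hgen.trans (iSup_le ?_)
    rintro ⟨w, hwH, hw1⟩
    have hwt : w ∈ Subgroup.centralizer {t} := by
      rw [Subgroup.mem_centralizer_singleton_iff]
      exact h.comm hH₀cop hwH htH₀
    have hwp : (orderOf w).Coprime p := by
      have h1 : orderOf w ∣ Nat.card H₀ := by
        have := orderOf_dvd_natCard (⟨w, hwH⟩ : H₀)
        rwa [Subgroup.orderOf_mk] at this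
      exact Nat.Coprime.coprime_dvd_left h1 hH₀cop
    obtain ⟨R, hRt, hRw⟩ := exists_sylow_comm hp2 h hS hns ht1 ht hwt hwp
    have hRM : (R : Subgroup G) ≤ M := hRt.trans hCt
    have hRab : IsMulCommutative (R : Subgroup G) := by
      refine ⟨⟨fun a b => Subtype.ext (comm_of_two hp2 h R.2 a a.2 b b.2)⟩⟩
    have h1 := centralizer_le_of_sylow hns hS hM hRM hRab
      (isElementaryAbelian_omegaTwo _ (comm_of_two hp2 h R.2)) (hrank R)
      (omegaTwo_le _ _) hw1 hRw
    exact fun z hz => h1 hz.2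
  exact hxM (hPM hxP)

end Main

end Cfsg.Agent.Lib.Loc5.Final
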