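import Mathlib
import Cfsg.Agent.Lib.Loc5.Final
import Cfsg.Agent.Lib.Signalizer.CompleteTwo

set_option autoImplicit false
set_option linter.unusedSectionVars false
set_option linter.style.haveILetI false
set_option linter.unusedVariables false

/-!
# The signalizer functor `a ↦ O(C(a))` and the subgroup `M`

For `G` simple with solvable proper subgroups and abelian Sylow 2-subgroups of 2-rank at least 3,
`θ a = O(C(a))` is a solvable signalizer functor.  Its closure `W` has odd order, and `N(W)` (or `N(T)`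
if `W = 1`) contains `N(T)` and all `C(a)`, `1 ≠ a ∈ T`.
-/

namespace Cfsg.Agent.Lib.Loc5.Funct

open Cfsg Cfsg.Agent.Lib.Loc5.Count Cfsg.Agent.Lib.Loc5.Local Cfsg.Agent.Lib.Loc5.Final

universe u

variable {G : Type u} [Group G] [Finite G]

/-- Conjugates of `O(C(a))`. -/
theorem conj_mem_oddOf_centralizer (g : G) {a x : G}
    (hx : x ∈ oddOf (Subgroup.centralizer {a})) :
    g * x * g⁻¹ ∈ oddOf (Subgroup.centralizer {g * a * g⁻¹}) := by
  classical
  haveI : Fact (Nat.Prime 2) := ⟨Nat.prime_two⟩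
  set K := Subgroup.centralizer {a} with hK
  set K' := Subgroup.centralizer {g * a * g⁻¹} with hK'
  have hmem : ∀ y ∈ K, g * y * g⁻¹ ∈ K' := by
    intro y hy
    rw [hK, Subgroup.mem_centralizer_singleton_iff] at hy
    rw [hK', Subgroup.mem_centralizer_singleton_iff]
    calc g * y * g⁻¹ * (g * a * g⁻¹) = g * (y * a) * g⁻¹ := by group
      _ = g * (a * y) * g⁻¹ := by rw [hy]
      _ = g * a * g⁻¹ * (g * y * g⁻¹) := by group
  have hmem' : ∀ y ∈ K', g⁻¹ * y * g ∈ K := by
    intro y hy
    rw [hK', Subgroup.mem_centralizer_singleton_iff] at hy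
    rw [hK, Subgroup.mem_centralizer_singleton_iff]
    have h1 : g⁻¹ * y * g * a = g⁻¹ * (y * (g * a * g⁻¹)) * g := by group
    have h2 : a * (g⁻¹ * y * g) = g⁻¹ * ((g * a * g⁻¹) * y) * g := by group
    rw [h1, h2, hy]
  set D := oddOf K with hD
  let Y : Subgroup K' :=
    { carrier := {y | g⁻¹ * (y : G) * g ∈ D}
      mul_mem' := by
        intro u v hu hv
        have : g⁻¹ * ((u * v : K') : G) * g = (g⁻¹ * (u : G) * g) * (g⁻¹ * (v : G) * g) := by
          simp only [Subgroup.coe_mul]
          group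
        show g⁻¹ * ((u * v : K') : G) * g ∈ D
        rw [this]
        exact D.mul_mem hu hv
      one_mem' := by
        show g⁻¹ * ((1 : K') : G) * g ∈ D
        simp [D.one_mem]
      inv_mem' := by
        intro u hu
        have : g⁻¹ * ((u⁻¹ : K') : G) * g = (g⁻¹ * (u : G) * g)⁻¹ := by
          simp only [Subgroup.coe_inv]
          group
        show g⁻¹ * ((u⁻¹ : K') : G) * g ∈ D
        rw [this]
        exact D.inv_mem hu }
  have hYn : Y.Normal := by
    constructor
    intro u hu c
    show g⁻¹ * ((c * u * c⁻¹ : K') : G) * g ∈ D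
    have h1 : g⁻¹ * ((c * u * c⁻¹ : K') : G) * g =
        (g⁻¹ * (c : G) * g) * (g⁻¹ * (u : G) * g) * (g⁻¹ * (c : G) * g)⁻¹ := by
      simp only [Subgroup.coe_mul, Subgroup.coe_inv]
      group
    rw [h1]
    exact conj_mem_oddOf K (hmem' c c.2) hu
  have hYc : (Nat.card Y).Coprime 2 := by
    let f : Y →* D :=
      { toFun := fun y => ⟨g⁻¹ * ((y : K') : G) * g, y.2⟩
        map_one' := by
          apply Subtype.ext
          simp
        map_mul' := by
          intro u v
          apply Subtype.ext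
          simp only [Subgroup.coe_mul, MulMemClass.mk_mul_mk]
          group }
    have hf : Function.Injective f := by
      intro u v huv
      have h1 := congrArg Subtype.val huv
      have h2 : g⁻¹ * ((u : K') : G) * g = g⁻¹ * ((v : K') : G) * g := h1
      have h3 : ((u : K') : G) = ((v : K') : G) := by
        have := congrArg (fun z => g * z * g⁻¹) h2
        simpa [mul_assoc] using this
      exact Subtype.ext (Subtype.ext h3)
    have hd : Nat.card Y ∣ Nat.card D := Subgroup.card_dvd_of_injective f hf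
    have hD2 := not_two_dvd_card_oddOf K
    exact ((Nat.Prime.coprime_iff_not_dvd Nat.prime_two).mpr fun h => hD2 (h.trans hd)).symm
  have hle := Cfsg.Agent.Lib.Basic.PCore.le_pPrimeCore hYn hYc
  have hxK : x ∈ K := oddOf_le K hx
  have hyK' : g * x * g⁻¹ ∈ K' := hmem x hxK
  refine Subgroup.mem_map.mpr ⟨⟨_, hyK'⟩, hle ?_, rfl⟩
  show g⁻¹ * (g * x * g⁻¹) * g ∈ D
  have : g⁻¹ * (g * x * g⁻¹) * g = x := by group
  rw [this]
  exact hx

variable {p : ℕ} [hp : Fact p.Prime] [IsSimpleGroup G]

/-- Rank of Sylow 2-subgroups. -/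
theorem eight_le (hp2 : p ≠ 2) (hp3 : p ≠ 3) (h : Hyp p G) (hns : ¬ Group.IsSolvable G)
    (h2 : 2 ∣ Nat.card G) (R : Sylow 2 G) :
    8 ≤ Nat.card (omegaTwo (R : Subgroup G) (comm_of_two hp2 h R.2)) := by
  classical
  haveI : Fact (Nat.Prime 2) := ⟨Nat.prime_two⟩
  set A := omegaTwo (R : Subgroup G) (comm_of_two hp2 h R.2) with hA
  have hAp : IsPGroup 2 A := R.2.to_le (omegaTwo_le _ _)
  obtain ⟨d, hd⟩ := IsPGroup.iff_card.mp hAp
  have hcop : (Nat.card A).Coprime p := by
    rw [hd]
    exact Nat.Coprime.pow_left d (two_coprime hp2)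
  have hnorm : Subgroup.normalizer ((R : Subgroup G) : Set G) ≤ Subgroup.normalizer (A : Set G) := by
    intro g hg
    rw [Subgroup.mem_normalizer_iff] at hg ⊢
    intro x
    constructor
    · rintro ⟨hx, hx2⟩
      refine ⟨(hg x).mp hx, ?_⟩
      calc g * x * g⁻¹ * (g * x * g⁻¹) = g * (x * x) * g⁻¹ := by group
        _ = 1 := by rw [hx2]; group
    · rintro ⟨hx, hx2⟩
      refine ⟨(hg x).mpr hx, ?_⟩
      have : x * x = g⁻¹ * (g * x * g⁻¹ * (g * x * g⁻¹)) * g := by group
      rw [this, hx2]
      group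
  have hmod : Nat.card A ≡ 1 [MOD p] := by
    refine card_modEq_one_of_fixed h hnorm hcop fun x hx hf => ?_
    have hRab : IsMulCommutative (R : Subgroup G) :=
      ⟨⟨fun a b => Subtype.ext (comm_of_two hp2 h R.2 a a.2 b b.2)⟩⟩
    exact fixed_eq_one (commutator_eq_top hns) R hRab hx.1 hf
  -- the order of `A`
  have hR1 : 1 < Nat.card (R : Subgroup G) := by
    rw [R.card_eq_multiplicity]
    have h3 : (Nat.card G).factorization 2 ≠ 0 := by
      have := (Nat.Prime.dvd_iff_one_le_factorization Nat.prime_two Nat.card_pos.ne').mp h2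
      omega
    exact Nat.one_lt_pow h3 (by norm_num)
  have hd0 : d ≠ 0 := by
    rintro rfl
    -- then `R` has no involution
    obtain ⟨x, hx⟩ := exists_prime_orderOf_dvd_card' (G := (R : Subgroup G)) 2
      (by
        obtain ⟨k, hk⟩ := IsPGroup.iff_card.mp R.2
        rw [hk] at hR1 ⊢
        have hk0 : k ≠ 0 := by
          rintro rfl
          simp at hR1
        exact dvd_pow_self 2 hk0)
    have hxA : (x : G) ∈ A := by
      refine ⟨x.2, ?_⟩
      have h5 : x ^ 2 = 1 := by
        have := pow_orderOf_eq_one x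
        rwa [hx] at this
      have h6 := congrArg Subtype.val h5
      simpa [pow_two] using h6
    have hone : Nat.card A = 1 := by rw [hd, pow_zero]
    have hbot : A = ⊥ := Subgroup.card_eq_one.mp hone
    rw [hbot, Subgroup.mem_bot] at hxA
    have : x = 1 := Subtype.ext hxA
    rw [this, orderOf_one] at hx
    omega
  have hp1 : p ≠ 1 := hp.out.ne_one
  match d, hd, hd0 with
  | 0, _, h0 => exact absurd rfl h0
  | 1, hd', _ =>
    rw [hd', pow_one] at hmod
    have h5 : (2 : ℕ) % p = 1 % p := hmod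
    have hp2' := hp.out.two_le
    have h6 : 2 < p := lt_of_le_of_ne hp2' (Ne.symm hp2)
    rw [Nat.mod_eq_of_lt h6, Nat.mod_eq_of_lt (by omega)] at h5
    omega
  | 2, hd', _ =>
    rw [hd'] at hmod
    have h5 : p ∣ 2 ^ 2 - 1 := (Nat.modEq_iff_dvd' (by norm_num)).mp hmod.symm
    have h6 : p ∣ 3 := by simpa using h5
    exact absurd ((Nat.prime_dvd_prime_iff_eq hp.out Nat.prime_three).mp h6) hp3
  | (k + 3), hd', _ =>
    rw [hd']
    have : 2 ^ (k + 3) = 8 * 2 ^ k := by ring
    have h1 : 1 ≤ 2 ^ k := Nat.one_le_two_pow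
    omega

/-- Existence of `M`. -/
theorem exists_SE (hp2 : p ≠ 2) (hp3 : p ≠ 3) (h : Hyp p G)
    (hS : ∀ K : Subgroup G, K ≠ ⊤ → Group.IsSolvable K) (hns : ¬ Group.IsSolvable G)
    (h2 : 2 ∣ Nat.card G) (T : Sylow 2 G) : ∃ M : Subgroup G, SE T M := by
  classical
  haveI : Fact (Nat.Prime 2) := ⟨Nat.prime_two⟩
  have hTc := comm_of_two hp2 h T.2
  have hTab : IsMulCommutative (T : Subgroup G) :=
    ⟨⟨fun a b => Subtype.ext (hTc a a.2 b b.2)⟩⟩
  set A := omegaTwo (T : Subgroup G) hTc with hA
  have hAe : IsElementaryAbelian 2 A := isElementaryAbelian_omegaTwo _ _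
  have hA8 : 2 ^ 3 ≤ Nat.card A := by simpa using eight_le hp2 hp3 h hns h2 T
  have hAT : A ≤ (T : Subgroup G) := omegaTwo_le _ _
  let θ : G → Subgroup G := fun a => oddOf (Subgroup.centralizer {a})
  have hTC : ∀ a ∈ (T : Subgroup G), (T : Subgroup G) ≤ Subgroup.centralizer {a} := by
    intro a ha y hy
    rw [Subgroup.mem_centralizer_singleton_iff]
    exact hTc y hy a ha
  have hsolvC : ∀ a : G, a ≠ 1 → Group.IsSolvable (Subgroup.centralizer {a}) := fun a ha =>
    hS _ (centralizer_ne_top hns ha)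
  have hθ : IsSolvableSignalizerFunctor 2 A θ := by
    refine ⟨⟨?_, ?_, ?_, ?_⟩, ?_⟩
    · intro a _ _
      exact oddOf_le _
    · intro a _ _
      exact not_two_dvd_card_oddOf _
    · intro a ha _ b hb x hx
      exact conj_mem_oddOf _ (hTC a (hAT ha) (hAT hb)) hx
    · intro a ha ha1 b hb hb1
      haveI := hsolvC b hb1
      set Y : Subgroup G := θ a ⊓ Subgroup.centralizer {b} with hY
      refine le_oddOf (T := T) (Subgroup.centralizer {b}) (hTC b (hAT hb)) hTab Y inf_le_right ?_ ?_
      · intro hd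
        exact not_two_dvd_card_oddOf (Subgroup.centralizer {a})
          (hd.trans (Subgroup.card_dvd_of_le inf_le_left))
      · intro τ hτ
        have hτa := hTC a (hAT ha) hτ
        have hτb := hTC b (hAT hb) hτ
        rw [Subgroup.mem_normalizer_iff]
        intro x
        constructor
        · rintro ⟨hx1, hx2⟩
          refine ⟨conj_mem_oddOf _ hτa hx1, ?_⟩
          exact Subgroup.mul_mem _ (Subgroup.mul_mem _ hτb hx2) (Subgroup.inv_mem _ hτb)
        · rintro ⟨hx1, hx2⟩
          refine ⟨?_, ?_⟩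
          · have := conj_mem_oddOf _ (Subgroup.inv_mem _ hτa) hx1
            simpa [mul_assoc] using this
          · have := Subgroup.mul_mem _ (Subgroup.mul_mem _ (Subgroup.inv_mem _ hτb) hx2) hτb
            simpa [mul_assoc] using this
    · intro a _ ha1
      haveI := hsolvC a ha1
      have hinj : Function.Injective (Subgroup.inclusion (oddOf_le (Subgroup.centralizer {a}))) :=
        Subgroup.inclusion_injective _
      exact Group.isSolvable_of_isSolvable_injective hinj
  -- the closure
  set W := signalizerClosure A θ with hW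
  have hWfam := Cfsg.Agent.Lib.Signalizer.CompleteTwo.complete_two hAe hA8 hθ
  have hWodd : ¬ 2 ∣ Nat.card W := hWfam.2.1
  have hWsolv : Group.IsSolvable W := hWfam.1
  have hθW : ∀ a ∈ A, a ≠ 1 → θ a ≤ W := fun a ha ha1 =>
    le_iSup (fun a : {a : G // a ∈ A ∧ a ≠ 1} => θ (a : G)) ⟨a, ha, ha1⟩
  -- conjugation by `N(T)` preserves `W`
  have hNW : ∀ g ∈ Subgroup.normalizer ((T : Subgroup G) : Set G), ∀ x ∈ W, g * x * g⁻¹ ∈ W := by
    intro g hg x hx
    have hle : W ≤ W.comap (MulAut.conj g).toMonoidHom := by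
      refine iSup_le ?_
      rintro ⟨a, ha, ha1⟩ y hy
      have h3 : g * a * g⁻¹ ∈ A := by
        refine ⟨(Subgroup.mem_normalizer_iff.mp hg a).mp ha.1, ?_⟩
        calc g * a * g⁻¹ * (g * a * g⁻¹) = g * (a * a) * g⁻¹ := by group
          _ = 1 := by rw [ha.2]; group
      have h4 : g * a * g⁻¹ ≠ 1 := by
        intro h0
        apply ha1
        have : a = g⁻¹ * (g * a * g⁻¹) * g := by group
        rw [this, h0]
        group
      exact hθW _ h3 h4 (conj_mem_oddOf_centralizer g hy)
    exact hle hx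
  -- every centralizer decomposes
  have hdec : ∀ b ∈ A, b ≠ 1 → ∀ c ∈ Subgroup.centralizer {b},
      ∃ d ∈ W, ∃ n ∈ Subgroup.normalizer ((T : Subgroup G) : Set G), c = n * d := by
    intro b hb hb1 c hc
    haveI := hsolvC b hb1
    obtain ⟨d, hd, n, hn, -, rfl⟩ := exists_mul_of_mem (T := T) (Subgroup.centralizer {b})
      (hTC b (hAT hb)) hTab hc
    exact ⟨d, hθW b hb hb1 hd, n, hn, rfl⟩
  -- reduction to involutions
  have hred : ∀ a ∈ (T : Subgroup G), a ≠ 1 →
      ∃ b ∈ A, b ≠ 1 ∧ Subgroup.centralizer {a} ≤ Subgroup.centralizer {b} := by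
    intro a ha ha1
    obtain ⟨k, hk⟩ := (IsPGroup.iff_orderOf.mp T.2) ⟨a, ha⟩
    rw [Subgroup.orderOf_mk] at hk
    have h2o : 2 ∣ orderOf a := by
      rw [hk]
      have hk0 : k ≠ 0 := by
        rintro rfl
        rw [pow_zero] at hk
        exact ha1 (orderOf_eq_one_iff.mp hk)
      exact dvd_pow_self 2 hk0
    have hbo : orderOf (a ^ (orderOf a / 2)) = 2 := orderOf_pow_orderOf_div (orderOf_pos a).ne' h2o
    refine ⟨a ^ (orderOf a / 2), ⟨Subgroup.pow_mem _ ha _, ?_⟩, ?_, ?_⟩
    · have := pow_orderOf_eq_one (a ^ (orderOf a / 2))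
      rw [hbo, pow_two] at this
      exact this
    · intro h0
      rw [h0, orderOf_one] at hbo
      omega
    · intro c hc
      rw [Subgroup.mem_centralizer_singleton_iff] at hc ⊢
      exact (Commute.pow_right hc _).eq
  by_cases hWbot : W = ⊥
  · refine ⟨Subgroup.normalizer ((T : Subgroup G) : Set G), ?_, le_rfl, ?_⟩
    · intro htop
      have hn : (T : Subgroup G).Normal := Subgroup.normalizer_eq_top_iff.mp htop
      have hsolvT : Group.IsSolvable (T : Subgroup G) := by
        haveI := T.2.isNilpotent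
        infer_instance
      have hTbot : (T : Subgroup G) ≠ ⊥ := by
        intro h0
        have h3 : Nat.card (T : Subgroup G) = 1 := by rw [h0]; simp
        rw [T.card_eq_multiplicity] at h3
        have h4 : (Nat.card G).factorization 2 = 0 := by
          by_contra h5
          have := Nat.one_lt_pow h5 (by norm_num : 1 < 2)
          omega
        have := (Nat.Prime.dvd_iff_one_le_factorization Nat.prime_two Nat.card_pos.ne').mp h2
        omega
      exact normalizer_ne_top hns hTbot hsolvT htop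
    · intro a ha ha1 c hc
      obtain ⟨b, hb, hb1, hab⟩ := hred a ha ha1
      obtain ⟨d, hd, n, hn, rfl⟩ := hdec b hb hb1 c (hab hc)
      rw [hWbot, Subgroup.mem_bot] at hd
      rw [hd, mul_one]
      exact hn
  · refine ⟨Subgroup.normalizer (W : Set G), normalizer_ne_top hns hWbot hWsolv, ?_, ?_⟩
    · intro g hg
      rw [Subgroup.mem_normalizer_iff]
      intro x
      refine ⟨hNW g hg x, fun hx => ?_⟩
      have := hNW g⁻¹ (Subgroup.inv_mem _ hg) _ hx
      simpa [mul_assoc] using this
    · intro a ha ha1 c hc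
      obtain ⟨b, hb, hb1, hab⟩ := hred a ha ha1
      obtain ⟨d, hd, n, hn, rfl⟩ := hdec b hb hb1 c (hab hc)
      refine Subgroup.mul_mem _ ?_ (Subgroup.le_normalizer hd)
      rw [Subgroup.mem_normalizer_iff]
      intro x
      refine ⟨hNW n hn x, fun hx => ?_⟩
      have := hNW n⁻¹ (Subgroup.inv_mem _ hn) _ hx
      simpa [mul_assoc] using this

/-- A simple group of even order with solvable proper subgroups violates the hypothesis. -/
theorem false_of_simple (hp2 : p ≠ 2) (hp3 : p ≠ 3) (h : Hyp p G)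
    (hS : ∀ K : Subgroup G, K ≠ ⊤ → Group.IsSolvable K) (hns : ¬ Group.IsSolvable G)
    (h2 : 2 ∣ Nat.card G) : False := by
  haveI : Fact (Nat.Prime 2) := ⟨Nat.prime_two⟩
  obtain ⟨T⟩ : Nonempty (Sylow 2 G) := inferInstance
  obtain ⟨M, hM⟩ := exists_SE hp2 hp3 h hS hns h2 T
  refine false_of_SE hp2 h hS hns hM fun R => ?_
  have := eight_le hp2 hp3 h hns h2 R
  omega

end Cfsg.Agent.Lib.Loc5.Funct
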