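import Mathlib
import Cfsg.Agent.Lib.Loc5.Funct
import Cfsg.Agent.Lib.Coprime.PSolvable
import Cfsg.Agent.Lib.Char.Burnside2

set_option autoImplicit false
set_option linter.unusedSectionVars false
set_option linter.style.haveILetI false
set_option linter.unusedVariables false

/-!
# Every `p'`-subgroup abelian of exponent dividing `p - 1` implies solvable

The reduction to simple groups.  The Odd Order Theorem enters as a hypothesis.
-/

namespace Cfsg.Agent.Lib.Loc5.Main

open Cfsg Cfsg.Agent.Lib.Loc5.Count Cfsg.Agent.Lib.Loc5.Final Cfsg.Agent.Lib.Loc5.Funct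

universe u

variable {G : Type u} [Group G] [Finite G] {p : ℕ} [hp : Fact p.Prime]

/-- The hypothesis passes to quotients by solvable normal subgroups. -/
theorem hyp_quotient (h : Hyp p G) {N : Subgroup G} [N.Normal] (hN : Group.IsSolvable N) :
    Hyp p (G ⧸ N) := by
  classical
  intro Kb hKb
  set π := QuotientGroup.mk' N with hπ
  have hπs : Function.Surjective π := QuotientGroup.mk'_surjective N
  set X : Subgroup G := Kb.comap π with hX
  let f : X →* Kb := π.subgroupComap Kb
  have hf : Function.Surjective f := π.subgroupComap_surjective_of_surjective Kb hπs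
  have hfk : ∀ x : X, x ∈ f.ker ↔ (x : G) ∈ N := by
    intro x
    rw [MonoidHom.mem_ker]
    constructor
    · intro h0
      have h1 : π (x : G) = 1 := congrArg Subtype.val h0
      have h2 : (x : G) ∈ π.ker := h1
      rwa [QuotientGroup.ker_mk'] at h2
    · intro h0
      apply Subtype.ext
      have h2 : (x : G) ∈ π.ker := by rwa [QuotientGroup.ker_mk']
      exact h2
  have hkersolv : Group.IsSolvable f.ker := by
    let g : f.ker →* N :=
      { toFun := fun x => ⟨((x : X) : G), (hfk x).mp x.2⟩
        map_one' := rfl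
        map_mul' := fun _ _ => rfl }
    have hg : Function.Injective g := by
      intro a b hab
      have := congrArg Subtype.val hab
      exact Subtype.ext (Subtype.ext this)
    exact Group.isSolvable_of_isSolvable_injective hg
  have hXps : IsPSolvable p X := by
    refine Cfsg.Agent.Lib.Solvable.PSeries.isPSolvable_of_normal_quotient f.ker
      (Cfsg.Agent.Lib.Solvable.PSeries.isPSolvable_of_solvable) ?_
    have e : (X ⧸ f.ker) ≃* Kb := QuotientGroup.quotientKerEquivOfSurjective f hf
    refine Cfsg.Agent.Lib.Coprime.PSolvable.isPSolvable_of_normal_good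
      (⊤ : Subgroup (X ⧸ f.ker)) (Or.inr ?_) ?_
    · rw [Subgroup.card_top, Nat.card_congr e.toEquiv]
      exact hKb
    · haveI : Subsingleton ((X ⧸ f.ker) ⧸ (⊤ : Subgroup (X ⧸ f.ker))) :=
        QuotientGroup.subsingleton_quotient_top
      exact Cfsg.Agent.Lib.Coprime.PSolvable.isPSolvable_of_subsingleton
  obtain ⟨S, hSp, m, hSm⟩ := Cfsg.Agent.Lib.Coprime.PSolvable.exists_hall hp.out hXps
  -- the image of `S` is everything
  have hSf : S.map f = ⊤ := by
    have h1 : (S.map f).index ∣ p ^ m := hSm ▸ Subgroup.index_map_dvd S hf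
    have h2 : (S.map f).index ∣ Nat.card Kb := Subgroup.index_dvd_card _
    have h3 : Nat.Coprime (Nat.card Kb) (p ^ m) := Nat.Coprime.pow_right m hKb
    have h4 : (S.map f).index = 1 := Nat.Coprime.eq_one_of_dvd
      (Nat.Coprime.coprime_dvd_left h2 h3) h1
    exact Subgroup.index_eq_one.mp h4
  set S' : Subgroup G := S.map X.subtype with hS'
  have hS'c : (Nat.card S').Coprime p := by
    have : Nat.card S' = Nat.card S := Subgroup.card_map_of_injective X.subtype_injective
    rw [this]
    exact ((Nat.Prime.coprime_iff_not_dvd hp.out).mpr hSp).symm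
  obtain ⟨h1, h2⟩ := h S' hS'c
  have hlift : ∀ y : Kb, ∃ s : S, f s = y := by
    intro y
    have : y ∈ S.map f := by rw [hSf]; trivial
    obtain ⟨s, hs, rfl⟩ := Subgroup.mem_map.mp this
    exact ⟨⟨s, hs⟩, rfl⟩
  have hmemS' : ∀ s : S, (((s : X)) : G) ∈ S' := fun s => Subgroup.mem_map_of_mem _ s.2
  refine ⟨⟨⟨fun a b => ?_⟩⟩, fun x hx => ?_⟩
  · obtain ⟨s, rfl⟩ := hlift a
    obtain ⟨t, rfl⟩ := hlift b
    have hst : (s : X) * (t : X) = (t : X) * (s : X) := by
      apply Subtype.ext
      show ((s : X) : G) * ((t : X) : G) = ((t : X) : G) * ((s : X) : G)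
      exact congrArg Subtype.val (h1.is_comm.comm ⟨_, hmemS' s⟩ ⟨_, hmemS' t⟩)
    rw [← map_mul, ← map_mul, hst]
  · obtain ⟨s, hs⟩ := hlift ⟨x, hx⟩
    have h3 : ((s : X) : G) ^ (p - 1) = 1 := h2 _ (hmemS' s)
    have h4 : (s : X) ^ (p - 1) = 1 := by
      apply Subtype.ext
      simpa using h3
    have h5 : f (s : X) ^ (p - 1) = 1 := by rw [← map_pow, h4, map_one]
    rw [hs] at h5
    have := congrArg Subtype.val h5
    simpa using this

/-- The case `p = 2`: `G` is a 2-group. -/
theorem isPGroup_of_two (h : Hyp 2 G) : IsPGroup 2 G := by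
  intro g
  obtain ⟨a, b, hb, hab⟩ := Nat.exists_eq_pow_mul_and_not_dvd (orderOf_pos g).ne' 2 (by norm_num)
  refine ⟨a, ?_⟩
  have hyo : orderOf (g ^ (2 ^ a)) = b := by
    rw [orderOf_pow' g (pow_ne_zero a (by norm_num))]
    have h1 : (orderOf g).gcd (2 ^ a) = 2 ^ a := by
      rw [hab]
      exact Nat.gcd_eq_right (Dvd.intro b rfl)
    rw [h1, hab, Nat.mul_div_cancel_left _ (pow_pos (by norm_num) a)]
  have hc : (Nat.card (Subgroup.zpowers (g ^ (2 ^ a)))).Coprime 2 := by
    rw [Nat.card_zpowers, hyo]
    exact ((Nat.Prime.coprime_iff_not_dvd Nat.prime_two).mpr hb).symm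
  have := h.exp hc (Subgroup.mem_zpowers (g ^ (2 ^ a)))
  simpa using this

/-- The case `p = 3`: only the primes 2 and 3 occur. -/
theorem isSolvable_of_three (h : Hyp 3 G) : Group.IsSolvable G := by
  classical
  haveI : Fact (Nat.Prime 3) := ⟨Nat.prime_three⟩
  set n := Nat.card G with hn
  have hn0 : n ≠ 0 := Nat.card_pos.ne'
  have hprime : ∀ {q : ℕ}, q.Prime → q ∣ ordCompl[3] n → q = 2 := by
    intro q hq hd
    have hqn : q ∣ n := hd.trans (Nat.ordCompl_dvd n 3)
    have hq3 : q ≠ 3 := by
      rintro rfl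
      exact Nat.not_dvd_ordCompl Nat.prime_three hn0 hd
    haveI : Fact q.Prime := ⟨hq⟩
    obtain ⟨x, hx⟩ := exists_prime_orderOf_dvd_card' (G := G) q hqn
    have hc : (Nat.card (Subgroup.zpowers x)).Coprime 3 := by
      rw [Nat.card_zpowers, hx]
      exact (Nat.coprime_primes hq Nat.prime_three).mpr hq3
    have h1 := h.exp hc (Subgroup.mem_zpowers x)
    have h2 : q ∣ 3 - 1 := hx ▸ orderOf_dvd_of_pow_eq_one h1
    exact (Nat.prime_dvd_prime_iff_eq hq Nat.prime_two).mp h2
  have hm0 : ordCompl[3] n ≠ 0 := (Nat.ordCompl_pos 3 hn0).ne'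
  have h2pow := Nat.eq_prime_pow_of_unique_prime_dvd hm0 hprime
  have hcard : Nat.card G = 2 ^ (ordCompl[3] n).primeFactorsList.length * 3 ^ n.factorization 3 := by
    rw [← h2pow, mul_comm]
    exact (Nat.ordProj_mul_ordCompl_eq_self n 3).symm
  exact Cfsg.Agent.Lib.Char.Burnside2.isSolvable_of_card_eq Nat.prime_two Nat.prime_three _ G _ _ rfl hcard

/-- **Theorem.** Modulo the Odd Order Theorem. -/
theorem isSolvable_of_hyp (hFT : ∀ (X : Type u) [Group X] [Finite X], Odd (Nat.card X) → Group.IsSolvable X)
    (p : ℕ) [hp : Fact p.Prime] :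
    ∀ (n : ℕ) (G : Type u) [Group G] [Finite G], Nat.card G = n → Hyp p G → Group.IsSolvable G := by
  intro n
  induction n using Nat.strong_induction_on with
  | _ n ih =>
    intro G _ _ hn h
    by_contra hns
    have hnt : Nontrivial G := by
      rcases subsingleton_or_nontrivial G with hs | hs
      · exfalso
        apply hns
        infer_instance
      · exact hs
    have hcardlt : ∀ K : Subgroup G, K ≠ ⊤ → Nat.card K < n := by
      intro K hK
      rw [← hn]
      refine lt_of_le_of_ne (Subgroup.card_le_card_group K) ?_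
      intro he
      exact hK (Subgroup.eq_top_of_card_eq K he)
    by_cases hex : ∃ N : Subgroup G, N.Normal ∧ N ≠ ⊥ ∧ N ≠ ⊤
    · obtain ⟨N, hNn, hNb, hNt⟩ := hex
      haveI := hNn
      have hNs : Group.IsSolvable N := ih _ (hcardlt N hNt) N rfl (h.subgroup N)
      have hQlt : Nat.card (G ⧸ N) < n := by
        have h1 := Subgroup.card_mul_index N
        have h2 : 1 < Nat.card N := by
          by_contra h3
          have h4 : Nat.card N = 1 := le_antisymm (not_lt.mp h3) Nat.card_pos
          exact hNb (Subgroup.card_eq_one.mp h4)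
        have h5 : 0 < N.index := Nat.pos_of_ne_zero Subgroup.index_ne_zero_of_finite
        have h6 : N.index = Nat.card (G ⧸ N) := rfl
        rw [← h6, ← hn, ← h1]
        exact lt_mul_of_one_lt_left h5 h2
      have hQs : Group.IsSolvable (G ⧸ N) := ih _ hQlt (G ⧸ N) rfl (hyp_quotient h hNs)
      apply hns
      refine Group.isSolvable_of_ker_le_range N.subtype (QuotientGroup.mk' N) ?_
      rw [QuotientGroup.ker_mk', Subgroup.range_subtype]
    · haveI hsimple : IsSimpleGroup G := by
        refine ⟨fun H hH => ?_⟩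
        by_contra hcon
        push Not at hcon
        exact hex ⟨H, hH, hcon.1, hcon.2⟩
      have hS : ∀ K : Subgroup G, K ≠ ⊤ → Group.IsSolvable K := fun K hK =>
        ih _ (hcardlt K hK) K rfl (h.subgroup K)
      have h2 : 2 ∣ Nat.card G := by
        by_contra hodd
        exact hns (hFT G (Nat.odd_iff.mpr (by omega)))
      by_cases hp2 : p = 2
      · subst hp2
        apply hns
        haveI := (isPGroup_of_two h).isNilpotent
        infer_instance
      by_cases hp3 : p = 3
      · subst hp3
        exact hns (isSolvable_of_three h)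
      exact false_of_simple hp2 hp3 h hS hns h2

end Cfsg.Agent.Lib.Loc5.Main
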